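import Cfsg.Agent.H6.Ree.Rep

/-! Centralizers of regular elements, element orders, and a counting argument. -/

set_option autoImplicit false

namespace Cfsg.Agent.H6.Ree

open Matrix Subgroup

section count
variable {G : Type*} [Group G] [Finite G]

/-- the conjugates of the elements of order greater than two of the centralizer of `s` -/
def Ys (s : G) : Set G := {h | ∃ c, Commute s c ∧ c ^ 2 ≠ 1 ∧ IsConj c h}

theorem count_Ys {s : G} {k b : ℕ} (ho : Odd (orderOf s)) (hb : b + 1 ≤ orderOf s)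
    (hC : ∀ c, Commute s c → c ^ 2 ≠ 1 → ∀ x, Commute c x ↔ Commute s x)
    (hk : {c | Commute s c ∧ IsConj s c}.ncard ≤ k) :
    b * Nat.card G ≤ k * (b + 1) * (Ys s).ncard := by
  classical
  haveI := Fintype.ofFinite G
  let C : Finset G := Finset.univ.filter fun c => Commute s c
  let Ω : Finset G := C.filter fun c => c ^ 2 = 1
  let C' : Finset G := C.filter fun c => ¬ c ^ 2 = 1
  let N : Finset G := Finset.univ.filter fun n => Commute s (n * s * n⁻¹)
  let Y : Finset G := (Ys s).toFinset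
  let T : Finset G := {c | Commute s c ∧ IsConj s c}.toFinset
  have h1 : Ω.card * orderOf s ≤ C.card := by
    rw [← Finset.card_range (orderOf s), ← Finset.card_product]
    refine Finset.card_le_card_of_injOn (fun p => p.1 * s ^ p.2) (fun p hp => ?_) ?_
    · simp only [Finset.coe_product, Set.mem_prod, Finset.mem_coe, Ω, C, Finset.mem_filter,
        Finset.mem_univ, true_and] at hp ⊢
      exact hp.1.1.mul_right ((Commute.refl s).pow_right _)
    · rintro ⟨a, i⟩ ha ⟨c, j⟩ hc e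
      simp only [Finset.coe_product, Set.mem_prod, Finset.mem_coe, Ω, C, Finset.mem_filter,
        Finset.mem_univ, true_and, Finset.mem_range] at ha hc e
      have e2 := congrArg (· ^ 2) e
      simp only [(ha.1.1.symm.pow_right i).mul_pow, (hc.1.1.symm.pow_right j).mul_pow, ha.1.2,
        hc.1.2, one_mul, ← pow_mul] at e2
      have e3 : i = j := (Nat.ModEq.cancel_right_of_coprime (c := 2)
        (Nat.coprime_two_right.2 ho) (pow_eq_pow_iff_modEq.1 e2)).eq_of_lt_of_lt ha.2 hc.2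
      subst e3
      exact Prod.ext (mul_right_cancel e) rfl
  have h2 : N.card ≤ C.card * T.card := by
    refine Finset.card_le_mul_card_image_of_maps_to (f := fun n => n * s * n⁻¹)
      (fun n hn => ?_) _ fun t ht => ?_
    · simp only [N, T, Finset.mem_filter, Finset.mem_univ, true_and, Set.mem_toFinset,
        Set.mem_ofPred_eq] at hn ⊢
      exact ⟨hn, isConj_iff.2 ⟨n, rfl⟩⟩
    · simp only [T, Set.mem_toFinset, Set.mem_ofPred_eq] at ht
      obtain ⟨n0, hn0⟩ := isConj_iff.1 ht.2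
      refine Finset.card_le_card_of_injOn (fun n => n0⁻¹ * n) (fun n hn => ?_)
        fun a _ c _ e => mul_left_cancel e
      simp only [Finset.coe_filter, Set.mem_ofPred_eq, C, Finset.mem_univ, true_and] at hn ⊢
      have := hn.2.trans hn0.symm
      change s * (n0⁻¹ * n) = n0⁻¹ * n * s
      calc _ = n0⁻¹ * (n0 * s * n0⁻¹) * n := by group
        _ = _ := by rw [← this]; group
  have h3 : (C' ×ˢ (Finset.univ : Finset G)).card ≤ N.card * Y.card := by
    refine Finset.card_le_mul_card_image_of_maps_to (f := fun p : G × G => p.2 * p.1 * p.2⁻¹)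
      (fun p hp => ?_) _ fun h hh => ?_
    · simp only [C', C, Y, Finset.mem_product, Finset.mem_filter, Finset.mem_univ, true_and,
        and_true, Set.mem_toFinset] at hp ⊢
      exact ⟨p.1, hp.1, hp.2, isConj_iff.2 ⟨p.2, rfl⟩⟩
    · obtain ⟨c0, hc0, hc0', hh⟩ := Set.mem_toFinset.1 hh
      obtain ⟨g0, rfl⟩ := isConj_iff.1 hh
      refine Finset.card_le_card_of_injOn (fun p => g0⁻¹ * p.2) (fun p hp => ?_) ?_
      · simp only [Finset.coe_filter, Set.mem_ofPred_eq, C', C, N, Finset.mem_univ, true_and,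
          Finset.mem_product, Finset.mem_filter, and_true] at hp ⊢
        refine (hC c0 hc0 hc0' _).1 ?_
        have e : c0 = g0⁻¹ * p.2 * p.1 * (g0⁻¹ * p.2)⁻¹ := by
          calc _ = g0⁻¹ * (g0 * c0 * g0⁻¹) * g0 := by group
            _ = _ := by rw [← hp.2]; group
        rw [e]
        exact hp.1.1.symm.map (MulAut.conj (g0⁻¹ * p.2))
      · rintro ⟨a, x⟩ ha ⟨c, y⟩ hc e
        obtain rfl : x = y := mul_left_cancel e
        simp only [Finset.coe_filter, Set.mem_ofPred_eq] at ha hc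
        exact Prod.ext (by simpa using ha.2.trans hc.2.symm) rfl
  have h4 : Ω.card + C'.card = C.card := Finset.card_filter_add_card_filter_not _
  have h5 : 0 < C.card := Finset.card_pos.2 ⟨1, by simp [C]⟩
  rw [Finset.card_product, Finset.card_univ] at h3
  rw [Set.ncard_eq_toFinset_card'] at hk ⊢
  rw [Nat.card_eq_fintype_card]
  have h6 : b * C.card ≤ (b + 1) * C'.card := by nlinarith
  refine Nat.le_of_mul_le_mul_left ?_ h5
  calc _ = b * C.card * Fintype.card G := by ring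
    _ ≤ (b + 1) * (C'.card * Fintype.card G) := by rw [← mul_assoc]; gcongr
    _ ≤ (b + 1) * (C.card * k * Y.card) := by
        exact Nat.mul_le_mul_left _ (h3.trans (Nat.mul_le_mul_right _
          (h2.trans (Nat.mul_le_mul_left _ hk))))
    _ = _ := by ring

theorem exists_commute_of_Ys {s t : G}
    (hs : ∀ c, Commute s c → c ^ 2 ≠ 1 → ∀ x, Commute c x ↔ Commute s x)
    (h : ¬ Disjoint (Ys s) (Ys t)) : ∃ t', Commute s t' ∧ orderOf t' = orderOf t := by
  obtain ⟨x, ⟨c, h1, h2, h3⟩, c', h4, -, h6⟩ := Set.not_disjoint_iff.1 h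
  obtain ⟨g, rfl⟩ := isConj_iff.1 (h6.trans h3.symm)
  exact ⟨MulAut.conj g t, (hs _ h1 h2 _).1 (h4.symm.map (MulAut.conj g)), MulEquiv.orderOf_eq _ _⟩

end count

variable {L : Type*} [Field L] {G : Type*} [Group G] {k : ℕ} {ρ : G →* M7 L}

/-- an element with distinct eigenvalues -/
structure Reg (ρ : G →* M7 L) (s : G) (Q Q' : M7 L) (d : Fin 7 → L) : Prop where
  inv : Q * Q' = 1
  diag : ρ s * Q = Q * diagonal d
  inj : Function.Injective d

/-- eigenvalues of an element of the centralizer -/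
def chi (ρ : G →* M7 L) (Q Q' : M7 L) (c : G) (i : Fin 7) : L := (Q' * ρ c * Q) i i

section
variable {s c c' : G} {Q Q' : M7 L} {d : Fin 7 → L}

theorem Reg.conj_eq (h : Reg ρ s Q Q' d) (hc : Commute s c) :
    Q' * ρ c * Q = diagonal (chi ρ Q Q' c) := by
  have h1 := mul_eq_one_comm.1 h.inv
  have h3 : Q' * ρ s = diagonal d * Q' := by
    rw [← Matrix.mul_one (Q' * ρ s), ← h.inv, ← Matrix.mul_assoc, Matrix.mul_assoc Q', h.diag,
      ← Matrix.mul_assoc, h1, Matrix.one_mul]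
  have h4 : diagonal d * (Q' * ρ c * Q) = Q' * ρ c * Q * diagonal d := by
    rw [← Matrix.mul_assoc, ← Matrix.mul_assoc, ← h3, Matrix.mul_assoc Q', (hc.map ρ).eq,
      Matrix.mul_assoc _ Q, ← h.diag]
    simp only [Matrix.mul_assoc]
  ext i j
  by_cases hij : i = j
  · subst hij; rw [diagonal_apply_eq]; rfl
  · have := congrFun (congrFun h4 i) j
    rw [diagonal_mul, mul_diagonal, mul_comm] at this
    rw [diagonal_apply_ne _ hij]
    exact (mul_eq_mul_left_iff.1 this).resolve_left fun e => hij (h.inj e)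

theorem Reg.chi_diag (h : Reg ρ s Q Q' d) (hc : Commute s c) :
    ρ c * Q = Q * diagonal (chi ρ Q Q' c) := by
  rw [← h.conj_eq hc, ← Matrix.mul_assoc, ← Matrix.mul_assoc, h.inv, Matrix.one_mul]

theorem Reg.chi_Diag (h : Reg ρ s Q Q' d) (hc : Commute s c) : Diag (ρ c) (chi ρ Q Q' c) :=
  ⟨Q, Q', h.inv, h.chi_diag hc⟩

theorem Reg.chi_self (h : Reg ρ s Q Q' d) : chi ρ Q Q' s = d := by
  ext i
  rw [chi, Matrix.mul_assoc, h.diag, ← Matrix.mul_assoc, mul_eq_one_comm.1 h.inv, Matrix.one_mul,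
    diagonal_apply_eq]

theorem Reg.chi_mul (h : Reg ρ s Q Q' d) (hc : Commute s c) (hc' : Commute s c') (i : Fin 7) :
    chi ρ Q Q' (c * c') i = chi ρ Q Q' c i * chi ρ Q Q' c' i := by
  rw [chi, map_mul, Matrix.mul_assoc, Matrix.mul_assoc, h.chi_diag hc', ← Matrix.mul_assoc,
    ← Matrix.mul_assoc, h.conj_eq hc, diagonal_mul_diagonal, diagonal_apply_eq]

theorem Reg.chi_one (h : Reg ρ s Q Q' d) (i : Fin 7) : chi ρ Q Q' 1 i = 1 := by
  simp [chi, mul_eq_one_comm.1 h.inv]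

theorem Reg.chi_pow (h : Reg ρ s Q Q' d) (hc : Commute s c) (n : ℕ) (i : Fin 7) :
    chi ρ Q Q' (c ^ n) i = chi ρ Q Q' c i ^ n := by
  induction n with
  | zero => simp [h.chi_one]
  | succ n ih => rw [pow_succ, h.chi_mul (hc.pow_right n) hc, ih, pow_succ]

theorem Reg.commute (hρ : RR k ρ) (h : Reg ρ s Q Q' d) (hc : Commute s c) (hc' : Commute s c') :
    Commute c c' := by
  apply hρ.inj
  rw [← Matrix.mul_one (ρ _), ← Matrix.mul_one (ρ (c' * c)), ← h.inv, ← Matrix.mul_assoc,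
    ← Matrix.mul_assoc, h.chi_diag (hc.mul_right hc'), h.chi_diag (hc'.mul_right hc)]
  congr 3
  ext i
  rw [h.chi_mul hc hc', h.chi_mul hc' hc, mul_comm]

variable [CharP L 3]

theorem Reg.not_three [Finite G] (hρ : RR k ρ) (h : Reg ρ s Q Q' d) (hc : Commute s c) :
    ¬ 3 ∣ orderOf c := by
  intro h3
  have h1 := orderOf_pow_orderOf_div (orderOf_pos c).ne' h3
  set x := c ^ (orderOf c / 3)
  have hd := h.chi_Diag (c := x) (hc.pow_right _)
  have h2 := (hρ.pow_iff hd 3).1 (h1 ▸ pow_orderOf_eq_one x)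
  have h4 : x ^ 1 = 1 := (hρ.pow_iff hd 1).2 fun i => by
    have h5 : (3 : L) = 0 := CharP.cast_eq_zero L 3
    have : (chi ρ Q Q' x i - 1) ^ 3 = 0 := by
      linear_combination h2 i + (chi ρ Q Q' x i - chi ρ Q Q' x i ^ 2) * h5
    rw [pow_one]; exact sub_eq_zero.1 (pow_eq_zero_iff (by norm_num) |>.1 this)
  rw [pow_one] at h4
  rw [h4, orderOf_one] at h1
  exact absurd h1 (by decide)

theorem Reg.chi_sq (hρ : RR k ρ) (h : Reg ρ s Q Q' d) (hc : Commute s c) {i : Fin 7}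
    (hi : d i = 1) : chi ρ Q Q' c i ^ 2 = 1 := by
  have key : ∀ c, Commute s c → ∀ j, chi ρ Q Q' c i * (Qᵀ * JJ L * Q) i j * chi ρ Q Q' c j =
      (Qᵀ * JJ L * Q) i j := fun c hc j => by
    have : (diagonal (chi ρ Q Q' c))ᵀ * (Qᵀ * JJ L * Q) * diagonal (chi ρ Q Q' c) =
        Qᵀ * JJ L * Q := by
      calc _ = (Q * diagonal (chi ρ Q Q' c))ᵀ * JJ L * (Q * diagonal (chi ρ Q Q' c)) := by
            simp only [transpose_mul, Matrix.mul_assoc]
        _ = Qᵀ * ((ρ c)ᵀ * JJ L * ρ c) * Q := by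
            simp only [← h.chi_diag hc, transpose_mul, Matrix.mul_assoc]
        _ = _ := by rw [hρ.orth]
    have := congrFun (congrFun this i) j
    rwa [mul_diagonal, diagonal_transpose, diagonal_mul] at this
  have h0 : (Qᵀ * JJ L * Q) i i ≠ 0 := by
    intro h0
    have h1 : ∀ j, (Qᵀ * JJ L * Q) i j = 0 := fun j => by
      by_contra hne
      have := key s (Commute.refl s) j
      rw [h.chi_self, hi, one_mul, mul_eq_left₀ hne] at this
      exact hne (h.inj (this.trans hi.symm) ▸ h0)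
    have h2 : Qᵀ * JJ L * Q * (Q' * JJ L * Q'ᵀ) = 1 := by
      calc _ = Qᵀ * (JJ L * (Q * Q') * JJ L) * Q'ᵀ := by simp only [Matrix.mul_assoc]
        _ = _ := by
          rw [h.inv, Matrix.mul_one, (lam_facts (K := L)).2.1, Matrix.mul_one, ← transpose_mul,
            mul_eq_one_comm.1 h.inv, transpose_one]
    have := congrFun (congrFun h2 i) i
    rw [mul_apply] at this
    simp [h1] at this
  exact mul_right_cancel₀ h0 (by linear_combination key c hc i)

theorem sq_ne_one_of_odd {x : G} (ho : Odd (orderOf x)) (h1 : x ≠ 1) : x ^ 2 ≠ 1 := fun e =>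
  h1 (orderOf_eq_one_iff.1 (Nat.eq_one_of_dvd_coprimes
    (Nat.coprime_two_right.2 ho) dvd_rfl (orderOf_dvd_of_pow_eq_one e)))

theorem Reg.eq_one [Finite G] (hρ : RR k ρ) (h : Reg ρ s Q Q' d) (hc : Commute s c) {i j : Fin 7}
    (hi : d i = 1) (hij : j ≠ i) (ho : Odd (orderOf c)) (hj : chi ρ Q Q' c j = 1) : c = 1 := by
  by_contra h1
  obtain ⟨d', hd', hinj, -⟩ := hρ.regular (h.not_three hρ hc) (sq_ne_one_of_odd ho h1)
  refine hij (hd'.inj (h.chi_Diag hc) hinj (hj.trans ?_))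
  obtain ⟨n, hn⟩ := ho
  have := h.chi_pow hc (orderOf c) i
  rw [pow_orderOf_eq_one, h.chi_one, hn, pow_succ, pow_mul, h.chi_sq hρ hc hi] at this
  simpa using this

theorem Reg.eq_of_chi [Finite G] (hρ : RR k ρ) (h : Reg ρ s Q Q' d) (hc : Commute s c)
    (hc' : Commute s c') {i j : Fin 7} (hi : d i = 1) (hij : j ≠ i) (ho : Odd (orderOf c))
    (ho' : Odd (orderOf c')) (hj : chi ρ Q Q' c j = chi ρ Q Q' c' j) : c = c' := by
  have h1 := h.chi_mul hc' hc'.inv_right j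
  rw [mul_inv_cancel, h.chi_one] at h1
  refine mul_inv_eq_one.1 (h.eq_one hρ (hc.mul_right hc'.inv_right) hi hij ?_ ?_)
  · exact Odd.of_dvd_nat (ho.mul (by rwa [orderOf_inv]))
      (h.commute hρ hc hc'.inv_right).orderOf_mul_dvd_mul_orderOf
  · rw [h.chi_mul hc hc'.inv_right, hj, h1]

omit [CharP L 3] in
theorem Reg.conj_perm (h : Reg ρ s Q Q' d) (hc : Commute s c) (h1 : IsConj s c) :
    ∃ π : Equiv.Perm (Fin 7), d ∘ π = chi ρ Q Q' c := by
  obtain ⟨g, rfl⟩ := isConj_iff.1 h1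
  refine exists_perm_of_map_eq ((Diag.roots ⟨Q, Q', h.inv, h.diag⟩).symm.trans
    (Eq.trans ?_ (h.chi_Diag hc).roots))
  rw [charpoly_of_conj (A := ρ (g * s * g⁻¹)) (B := ρ s) (Q := ρ g) (Q' := ρ g⁻¹)
    (by rw [← map_mul]; simp) (by rw [← map_mul, ← map_mul]; simp)]

end

variable [CharP L 3] [Finite G]

theorem RR.exists_reg (h : RR k ρ) {g : G} (h3 : ¬ 3 ∣ orderOf g) (h2 : g ^ 2 ≠ 1) :
    ∃ Q Q' d, Reg ρ g Q Q' d ∧ d 0 = 1 := by
  obtain ⟨d, ⟨Q, Q', h1, h4⟩, h5, h6, -⟩ := h.regular h3 h2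
  exact ⟨Q, Q', d, ⟨h1, h4, h5⟩, h6⟩

theorem RR.cent_eq (h : RR k ρ) {s : G} (h3 : ¬ 3 ∣ orderOf s) (h2 : s ^ 2 ≠ 1) (c : G)
    (hc : Commute s c) (hc2 : c ^ 2 ≠ 1) (x : G) : Commute c x ↔ Commute s x := by
  obtain ⟨Q, Q', d, hr, -⟩ := h.exists_reg h3 h2
  obtain ⟨Q1, Q1', d1, hr1, -⟩ := h.exists_reg (hr.not_three h hc) hc2
  exact ⟨fun hx => hr1.commute h hc.symm hx, fun hx => hr.commute h hc hx⟩

theorem RR.ncard_conj (h : RR k ρ) {s : G} (h3 : ¬ 3 ∣ orderOf s) (ho : Odd (orderOf s))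
    (h1 : s ≠ 1) : {c | Commute s c ∧ IsConj s c}.ncard ≤ 6 := by
  obtain ⟨Q, Q', d, hr, h0⟩ := h.exists_reg h3 (sq_ne_one_of_odd ho h1)
  have oc : ∀ c, IsConj s c → orderOf c = orderOf s := fun c hc => by
    obtain ⟨g, rfl⟩ := isConj_iff.1 hc; exact MulEquiv.orderOf_eq (MulAut.conj g) s
  refine (Set.ncard_le_ncard_of_injOn (t := d '' {i | i ≠ 0}) (fun c => chi ρ Q Q' c 1)
    (fun c hc => ?_) (fun c hc c' hc' e => ?_)).trans ((Set.ncard_image_le).trans ?_)
  · obtain ⟨π, hπ⟩ := hr.conj_perm hc.1 hc.2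
    refine ⟨π 1, fun e => ?_, congrFun hπ 1⟩
    have := hr.eq_one h hc.1 h0 (j := 1) (by decide) (oc c hc.2 ▸ ho) (by rw [← hπ]; simp [e, h0])
    exact h1 (orderOf_eq_one_iff.1 (by rw [← oc c hc.2, this, orderOf_one]))
  · exact hr.eq_of_chi h hc.1 hc'.1 h0 (j := 1) (by decide) (oc c hc.2 ▸ ho) (oc c' hc'.2 ▸ ho) e
  · rw [Set.ncard_eq_toFinset_card']; decide

/-- `(q - 1) / 2` -/
def nu (s : ℕ) : ℕ := 6 * s ^ 2 + 6 * s + 1
/-- `(q + 1) / 4` -/
def nv (s : ℕ) : ℕ := 3 * s ^ 2 + 3 * s + 1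
/-- `q + r + 1` -/
def na (s : ℕ) : ℕ := 12 * s ^ 2 + 18 * s + 7
/-- `q - r + 1` -/
def nb (s : ℕ) : ℕ := 12 * s ^ 2 + 6 * s + 1

omit [Finite G] in
theorem RR.order_of_not_three (h : RR k ρ) {s : ℕ} (hs : 3 ^ k = 6 * s + 3) {g : G}
    (h3 : ¬ 3 ∣ orderOf g) :
    g ^ (2 * nu s) = 1 ∨ g ^ (2 * nv s) = 1 ∨ g ^ na s = 1 ∨ g ^ nb s = 1 := by
  obtain ⟨x, y, z, hx, hd⟩ := h.eig g h3
  simp only [h.pow_iff hd, hx.pow_iff]
  have key : ∀ (n : ℤ) (n' : ℕ), n = 3 * n' → n • x = 0 ∧ n • y = 0 →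
      (n' : ℤ) • x = 0 ∧ (n' : ℤ) • y = 0 := by
    rintro _ n' rfl ⟨h1, h2⟩
    exact ⟨val_three _ (by rw [← h1]; module), val_three _ (by rw [← h2]; module)⟩
  obtain ⟨n, hn, h1⟩ := hx.order (s := 3 * s + 1) (by rw [hs]; push_cast; ring)
  simp only [List.mem_cons, List.not_mem_nil, or_false, hs] at hn
  rcases hn with rfl | rfl | rfl | rfl
  · exact Or.inl (key _ _ (by simp only [nu]; push_cast; ring) h1)
  · exact Or.inr (Or.inl (key _ _ (by simp only [nv]; push_cast; ring) h1))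
  · exact Or.inr (Or.inr (Or.inl (key _ _ (by simp only [na]; push_cast; ring) h1)))
  · exact Or.inr (Or.inr (Or.inr (key _ _ (by simp only [nb]; push_cast; ring) h1)))

theorem RR.order_of_three (h : RR k ρ) {g : G} (h3 : 3 ∣ orderOf g) :
    ∃ j, (g ^ 3 ^ j = 1 ∧ g ^ 9 = 1) ∨ (g ^ 6 = 1 ∧ g ^ 3 ≠ 1) := by
  obtain ⟨j, n, hn, e⟩ := Nat.exists_eq_pow_mul_and_not_dvd (orderOf_pos g).ne' 3 (by decide)
  have ho : orderOf (g ^ 3 ^ j) = n := by
    rw [orderOf_pow_of_dvd (by positivity) (e ▸ dvd_mul_right _ _), e,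
      Nat.mul_div_cancel_left _ (by positivity)]
  have h2 : (g ^ 3 ^ j) ^ 2 = 1 := by
    by_contra h2
    obtain ⟨Q, Q', d, hr, -⟩ := h.exists_reg (ho ▸ hn) h2
    exact hr.not_three h ((Commute.refl g).pow_left _) h3
  by_cases h1 : g ^ 3 ^ j = 1
  · exact ⟨j, Or.inl ⟨h1, h.pow_nine h1⟩⟩
  · obtain rfl : n = 2 := ho.symm.trans (orderOf_eq_prime h2 h1)
    have := h.pow_three (u := g ^ 2) (j := j) (by rw [← pow_mul, mul_comm, pow_mul, h2]) h2 h1
      ((Commute.refl g).pow_pow _ _)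
    refine ⟨0, Or.inr ⟨by rw [← this, ← pow_mul], fun e' => ?_⟩⟩
    have := orderOf_dvd_of_pow_eq_one e'
    rw [e] at this
    exact absurd ((dvd_mul_left _ _).trans this) (by decide)

end Cfsg.Agent.H6.Ree
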