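import Mathlib

/-! Combinatorics of the eigenvalues of semisimple elements of the small Ree groups, written
additively. -/

set_option autoImplicit false

namespace Cfsg.Agent.H6.Ree

variable {Γ : Type*} [AddCommGroup Γ]

/-- three elements and their negatives -/
def hx6 (x y z : Γ) : Multiset Γ := {x, -x, y, -y, z, -z}

/-- sums and differences -/
def M12 (x y z : Γ) : Multiset Γ := hx6 (x + y) (y + z) (z + x) + hx6 (x - y) (y - z) (z - x)

theorem hx6_def (x y z : Γ) : hx6 x y z = {x} + {-x} + {y} + {-y} + {z} + {-z} := by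
  simp only [hx6, Multiset.insert_eq_cons, ← Multiset.singleton_add, add_assoc]

theorem hx6_cyc (x y z : Γ) : hx6 y z x = hx6 x y z := by simp only [hx6_def]; abel
theorem hx6_swap (x y z : Γ) : hx6 y x z = hx6 x y z := by simp only [hx6_def]; abel
theorem hx6_neg (x y z : Γ) : hx6 (-x) y z = hx6 x y z := by simp only [hx6_def, neg_neg]; abel
theorem hx6_neg' (x y z : Γ) : hx6 (-x) (-y) (-z) = hx6 x y z := by simp only [hx6_def, neg_neg]; abel

theorem mem_hx6 {x y z w : Γ} :
    w ∈ hx6 x y z ↔ w = x ∨ w = -x ∨ w = y ∨ w = -y ∨ w = z ∨ w = -z := by simp [hx6]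

theorem M12_cyc (x y z : Γ) : M12 y z x = M12 x y z := by
  rw [M12, M12, hx6_cyc (x + y), hx6_cyc (x - y)]

theorem M12_swap (x y z : Γ) : M12 y x z = M12 x y z := by
  simp only [M12, hx6_def, neg_sub, add_comm y x, add_comm x z, add_comm z y]; abel

theorem M12_neg (x y z : Γ) : M12 (-x) y z = M12 x y z := by
  have e1 : -x + y = -(x - y) := by abel
  have e2 : z + -x = z - x := by abel
  have e3 : -x - y = -(x + y) := by abel
  have e4 : z - -x = z + x := by abel
  simp only [M12, e1, e2, e3, e4, hx6_def, neg_neg]; abel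

/-- the relation coming from the exterior square -/
def Rel (r : ℤ) (x y z : Γ) : Prop := M12 x y z = hx6 x y z + hx6 (r • x) (r • y) (r • z)

/-- no signed sum vanishes -/
def Ind (x y z : Γ) : Prop := x + y + z ≠ 0 ∧ x + y ≠ z ∧ y + z ≠ x ∧ z + x ≠ y

variable {r : ℤ} {x y z : Γ}

theorem Rel.cyc (h : Rel r x y z) : Rel r y z x := by
  rw [Rel, M12_cyc, hx6_cyc, hx6_cyc (r • x)]; exact h
theorem Rel.swap (h : Rel r x y z) : Rel r y x z := by
  rw [Rel, M12_swap, hx6_swap, hx6_swap (r • x)]; exact h
theorem Rel.neg (h : Rel r x y z) : Rel r (-x) y z := by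
  rw [Rel, M12_neg, hx6_neg, smul_neg, hx6_neg]; exact h
theorem Ind.cyc (h : Ind x y z) : Ind y z x := by unfold Ind at *; grind
theorem Ind.swap (h : Ind x y z) : Ind y x z := by unfold Ind at *; grind
theorem Ind.neg (h : Ind x y z) : Ind (-x) y z := by unfold Ind at *; grind

/-- `v = ± 2 u` -/
def Arr (u v : Γ) : Prop := v = u + u ∨ -v = u + u

theorem Rel.arr (h : Rel r x y z) (hI : Ind x y z) : y = 0 ∨ z = 0 ∨ Arr x y ∨ Arr x z := by
  have : x ∈ M12 x y z := h ▸ Multiset.mem_add.2 (Or.inl (mem_hx6.2 (Or.inl rfl)))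
  simp only [M12, Multiset.mem_add, mem_hx6] at this
  obtain ⟨h1, h2, h3, h4⟩ := hI
  rcases this with (e | e | e | e | e | e) | e | e | e | e | e | e
  · left; linear_combination (norm := module) -e
  · right; right; left; right; linear_combination (norm := module) -e
  · exact (h3 e.symm).elim
  · exact (h1 (by linear_combination (norm := module) e)).elim
  · right; left; linear_combination (norm := module) -e
  · right; right; right; right; linear_combination (norm := module) -e
  · left; linear_combination (norm := module) e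
  · right; right; left; left; linear_combination (norm := module) -e
  · exact (h4 (by linear_combination (norm := module) e)).elim
  · exact (h2 (by linear_combination (norm := module) e)).elim
  · right; right; right; left; linear_combination (norm := module) -e
  · right; left; linear_combination (norm := module) e

theorem Rel.not_zero_zero (h : Rel r 0 0 z) (hI : Ind 0 0 z) : False := by
  classical
  have hz : z ≠ 0 := by simpa using hI.1
  have := congrArg (Multiset.count 0) h
  simp only [M12, hx6, add_zero, zero_add, sub_zero, zero_sub, neg_zero, neg_neg, smul_zero,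
    Multiset.insert_eq_cons, Multiset.count_add, Multiset.count_cons, Multiset.count_singleton,
    if_true, hz.symm, zero_eq_neg, hz, if_false] at this
  omega

theorem Rel.ne_zero (h : Rel r x y z) (hI : Ind x y z) : x ≠ 0 := by
  rintro rfl
  have : y = 0 ∨ z = 0 := by
    have := h.arr hI
    unfold Arr at this
    grind
  rcases this with rfl | rfl
  · exact h.not_zero_zero hI
  · exact h.cyc.cyc.not_zero_zero hI.cyc.cyc

theorem Rel.two_cycle (h3 : ∀ w : Γ, w + w + w = 0 → w = 0) (h : Rel r x y z) (hI : Ind x y z)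
    (h1 : y = x + x) (h2 : Arr y x) (h4 : x = z + z) : False := by
  classical
  have hx := h.ne_zero hI
  have h5 : (5 : ℤ) • x = 0 := by
    rcases h2 with h2 | h2
    · exact (hx (h3 x (by grind))).elim
    · grind
  have hm : z + y ≠ 0 := by unfold Ind at hI; grind
  have e1 : (5 : ℤ) • y = 0 := by linear_combination (norm := module) (5 : ℤ) • h1 + (2 : ℤ) • h5
  have e2 : (5 : ℤ) • z = z + y := by linear_combination (norm := module) -(2 : ℤ) • h4 - h1
  have e3 : -(z + y) = z + y := by
    linear_combination (norm := module) h4 - (2 : ℤ) • h1 - h5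
  have := congrArg (fun s => Multiset.count 0 (s.map fun w => (5 : ℤ) • w)) h
  simp only [M12, hx6, Multiset.map_add, Multiset.insert_eq_cons, Multiset.map_cons,
    Multiset.map_singleton, smul_add, smul_sub, smul_neg, smul_comm (5 : ℤ) r, h5, e1, e2, e3,
    add_zero, zero_add, sub_zero, zero_sub, neg_zero, smul_zero, Multiset.count_add,
    Multiset.count_cons, Multiset.count_singleton, if_true, hm.symm, if_false] at this
  omega

theorem Arr.neg_right {u v : Γ} (h : Arr u v) : Arr u (-v) := by unfold Arr at *; grind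
theorem Arr.neg_left {u v : Γ} (h : Arr u v) : Arr (-u) v := by unfold Arr at *; grind

theorem Rel.two_cycle' (h3 : ∀ w : Γ, w + w + w = 0 → w = 0) (h : Rel r x y z) (hI : Ind x y z)
    (h1 : Arr x y) (h2 : Arr y x) (h4 : Arr z x) : False := by
  have key : ∀ {y : Γ}, Rel r x y z → Ind x y z → y = x + x → Arr y x → False := by
    intro y h hI h1 h2
    rcases h4 with h4 | h4
    · exact h.two_cycle h3 hI h1 h2 h4
    · exact h.cyc.cyc.neg.cyc.two_cycle h3 hI.cyc.cyc.neg.cyc h1 h2 (by grind)
  rcases h1 with h1 | h1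
  · exact key h hI h1 h2
  · exact key h.cyc.neg.cyc.cyc hI.cyc.neg.cyc.cyc h1 h2.neg_left

theorem Rel.three_cycle (h3 : ∀ w : Γ, w + w + w = 0 → w = 0) (h : Rel r x y z) (hI : Ind x y z)
    (h1 : Arr x y) (h2 : Arr y z) (h4 : Arr z x) : False := by
  have hx := h.ne_zero hI
  have h9 : (9 : ℤ) • x ≠ 0 := fun e => hx (h3 _ (h3 _ (by grind)))
  unfold Ind Arr at *
  grind

theorem Rel.not_ind (h3 : ∀ w : Γ, w + w + w = 0 → w = 0) (h : Rel r x y z) : ¬ Ind x y z := by
  intro hI
  have key : ∀ {x y z : Γ}, Rel r x y z → Ind x y z → Arr x y → False := by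
    intro x y z h hI h1
    have hx := h.ne_zero hI
    have hy := h.cyc.ne_zero hI.cyc
    have hz := h.cyc.cyc.ne_zero hI.cyc.cyc
    rcases h.cyc.arr hI.cyc with e | e | h2 | h2
    · exact hz e
    · exact hx e
    · rcases h.cyc.cyc.arr hI.cyc.cyc with e | e | h4 | h4
      · exact hx e
      · exact hy e
      · exact h.three_cycle h3 hI h1 h2 h4
      · exact h.cyc.two_cycle' h3 hI.cyc h2 h4 h1
    · rcases h.cyc.cyc.arr hI.cyc.cyc with e | e | h4 | h4
      · exact hx e
      · exact hy e
      · exact h.two_cycle' h3 hI h1 h2 h4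
      · exact h.swap.two_cycle' h3 hI.swap h2 h1 h4
  rcases h.arr hI with e | e | h1 | h1
  · exact h.cyc.ne_zero hI.cyc e
  · exact h.cyc.cyc.ne_zero hI.cyc.cyc e
  · exact key h hI h1
  · exact key h.swap.cyc hI.swap.cyc h1

/-- the short roots, multiplied by `r`, are the long roots -/
def Hex (r : ℤ) (x y z : Γ) : Prop :=
  x + y + z = 0 ∧ hx6 (r • x) (r • y) (r • z) = hx6 (x - y) (y - z) (z - x)

theorem Rel.hex (h : Rel r x y z) (h0 : x + y + z = 0) : Hex r x y z := by
  refine ⟨h0, ?_⟩
  have e1 : x + y = -z := by grind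
  have e2 : y + z = -x := by grind
  have e3 : z + x = -y := by grind
  rw [Rel, M12, e1, e2, e3, hx6_neg', hx6_cyc y, hx6_cyc] at h
  exact (add_left_cancel h).symm

theorem Rel.exists_hex (h3 : ∀ w : Γ, w + w + w = 0 → w = 0) (h : Rel r x y z) :
    ∃ x' y' z', Hex r x' y' z' ∧ hx6 x' y' z' = hx6 x y z := by
  have := h.not_ind h3
  simp only [Ind, not_and_or, not_not] at this
  rcases this with e | e | e | e
  · exact ⟨x, y, z, h.hex e, rfl⟩
  · exact ⟨-z, x, y, h.cyc.cyc.neg.hex (by grind), by rw [hx6_neg, hx6_cyc y, hx6_cyc]⟩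
  · exact ⟨-x, y, z, h.neg.hex (by grind), hx6_neg ..⟩
  · exact ⟨-y, z, x, h.cyc.neg.hex (by grind), by rw [hx6_neg, hx6_cyc]⟩

theorem hex_aux {a b c y z : Γ} (h0 : a + b + c = 0) (h1 : a + y + z = 0)
    (h : hx6 a y z = hx6 a b c) : y = b ∨ y = c ∨ (a = -a ∧ (y = -b ∨ y = -c)) := by
  have h2 : ({y, -y, z, -z} : Multiset Γ) = {b, -b, c, -c} := by
    simpa only [hx6, Multiset.insert_eq_cons, Multiset.cons_inj_right] using h
  have hy : y ∈ ({b, -b, c, -c} : Multiset Γ) := h2 ▸ by simp
  simp only [Multiset.insert_eq_cons, Multiset.mem_cons, Multiset.mem_singleton] at hy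
  rcases hy with e | e | e | e
  · exact Or.inl e
  · have h3 : ({z, -z} : Multiset Γ) = {c, -c} := by
      rw [e, neg_neg] at h2
      simp only [Multiset.insert_eq_cons] at h2 ⊢
      rwa [Multiset.cons_swap, Multiset.cons_inj_right, Multiset.cons_inj_right] at h2
    have hz : z ∈ ({c, -c} : Multiset Γ) := h3 ▸ by simp
    simp only [Multiset.insert_eq_cons, Multiset.mem_cons, Multiset.mem_singleton] at hz
    grind
  · exact Or.inr (Or.inl e)
  · have h3 : ({z, -z} : Multiset Γ) = {b, -b} := by
      rw [e, neg_neg] at h2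
      simp only [Multiset.insert_eq_cons, ← Multiset.singleton_add] at h2 ⊢
      apply add_left_cancel (a := {c} + {-c})
      calc _ = {-c} + ({c} + ({z} + {-z})) := by abel
        _ = _ := by rw [h2]; abel
    have hz : z ∈ ({b, -b} : Multiset Γ) := h3 ▸ by simp
    simp only [Multiset.insert_eq_cons, Multiset.mem_cons, Multiset.mem_singleton] at hz
    grind

theorem hex_cases {a b c x y z : Γ} (h0 : a + b + c = 0) (h1 : x + y + z = 0)
    (h : hx6 x y z = hx6 a b c) :
    (x = a ∧ (y = b ∨ y = c)) ∨ (x = b ∧ (y = c ∨ y = a)) ∨ (x = c ∧ (y = a ∨ y = b)) ∨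
    (x = -a ∧ (y = -b ∨ y = -c)) ∨ (x = -b ∧ (y = -c ∨ y = -a)) ∨ (x = -c ∧ (y = -a ∨ y = -b)) := by
  have hx : x ∈ hx6 a b c := h ▸ mem_hx6.2 (Or.inl rfl)
  rcases mem_hx6.1 hx with e | e | e | e | e | e <;> subst e
  · have := hex_aux h0 h1 h; grind
  · have := hex_aux (b := -b) (c := -c) (by grind) h1 (h.trans (hx6_neg' ..).symm)
    simp only [neg_neg] at this; grind
  · have := hex_aux (b := c) (c := a) (by grind) h1 (h.trans (hx6_cyc ..).symm); grind
  · have := hex_aux (b := -c) (c := -a) (by grind) h1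
      (h.trans ((hx6_neg' ..).trans (hx6_cyc ..)).symm)
    simp only [neg_neg] at this; grind
  · have := hex_aux (b := a) (c := b) (by grind) h1 (h.trans (hx6_cyc ..)); grind
  · have := hex_aux (b := -a) (c := -b) (by grind) h1
      (h.trans ((hx6_cyc ..).trans (hx6_neg' ..).symm).symm.symm)
    simp only [neg_neg] at this; grind

theorem ch2 (a b c d : ℤ) (hx : r • x = a • x + b • y) (hy : r • y = c • x + d • y) :
    (r * r - (a + d) * r + (a * d - b * c)) • x = 0 ∧
      (r * r - (a + d) * r + (a * d - b * c)) • y = 0 := by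
  constructor
  · linear_combination (norm := module) (r - d) • hx + b • hy
  · linear_combination (norm := module) (r - a) • hy + c • hx

theorem Hex.order (h : Hex r x y z) {s : ℤ} (hs : r = 2 * s + 1) :
    ∃ n ∈ [r * r - 3, 2 * s * s + 2 * s + 2, r * r + 3 * r + 3, r * r - 3 * r + 3],
      n • x = 0 ∧ n • y = 0 := by
  obtain ⟨h0, h⟩ := h
  obtain rfl : z = -x - y := by grind
  have := hex_cases (by abel) (by rw [← smul_add, ← smul_add, h0, smul_zero]) h
  simp only [List.mem_cons, List.not_mem_nil, or_false, exists_eq_or_imp, exists_eq_left]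
  rcases this with ⟨hx, hy | hy⟩ | ⟨hx, hy | hy⟩ | ⟨hx, hy | hy⟩ | ⟨hx, hy | hy⟩ |
    ⟨hx, hy | hy⟩ | ⟨hx, hy | hy⟩
  · have := ch2 1 (-1) 1 2 (hx.trans (by module)) (hy.trans (by module))
    right; right; right; simpa using this
  · have := ch2 1 (-1) (-2) (-1) (hx.trans (by module)) (hy.trans (by module))
    left; simpa [sub_eq_add_neg] using this
  · right; left; subst hs
    exact ⟨by linear_combination (norm := module) (s + 1) • hx + hy,
      by linear_combination (norm := module) s • hy - hx⟩
  · have := ch2 1 2 1 (-1) (hx.trans (by module)) (hy.trans (by module))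
    left; simpa [sub_eq_add_neg] using this
  · have := ch2 (-2) (-1) 1 (-1) (hx.trans (by module)) (hy.trans (by module))
    right; right; left; simpa using this
  · have := ch2 (-2) (-1) 1 2 (hx.trans (by module)) (hy.trans (by module))
    left; simpa [sub_eq_add_neg] using this
  · have := ch2 (-1) 1 (-1) (-2) (hx.trans (by module)) (hy.trans (by module))
    right; right; left; simpa using this
  · have := ch2 (-1) 1 2 1 (hx.trans (by module)) (hy.trans (by module))
    left; simpa [sub_eq_add_neg] using this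
  · right; left; subst hs
    exact ⟨by linear_combination (norm := module) s • hx - hy,
      by linear_combination (norm := module) (s + 1) • hy + hx⟩
  · have := ch2 (-1) (-2) (-1) 1 (hx.trans (by module)) (hy.trans (by module))
    left; simpa [sub_eq_add_neg] using this
  · have := ch2 2 1 (-1) 1 (hx.trans (by module)) (hy.trans (by module))
    right; right; right; simpa using this
  · have := ch2 2 1 (-1) (-2) (hx.trans (by module)) (hy.trans (by module))
    left; simpa [sub_eq_add_neg] using this

theorem Hex.cyc (h : Hex r x y z) : Hex r y z x :=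
  ⟨by have := h.1; grind, by rw [hx6_cyc, hx6_cyc (x - y)]; exact h.2⟩

theorem Hex.of_two (h : Hex r x y z) {s : ℤ} (hs : r = 2 * s + 1) (hx : x + x = 0) :
    y + y = 0 ∧ z + z = 0 := by
  have e : r • x = x := by subst hs; linear_combination (norm := module) s • hx
  have : x ∈ hx6 (x - y) (y - z) (z - x) := h.2 ▸ mem_hx6.2 (Or.inl e.symm)
  have h0 := h.1
  have hy : y + y = 0 := by
    rcases mem_hx6.1 this with e | e | e | e | e | e
    · linear_combination (norm := module) (2 : ℤ) • e
    · linear_combination (norm := module) (2 : ℤ) • hx - (2 : ℤ) • e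
    · linear_combination (norm := module) h0 - e
    · linear_combination (norm := module) h0 + e - hx
    · linear_combination (norm := module) (2 : ℤ) • h0 + (2 : ℤ) • e - (3 : ℤ) • hx
    · linear_combination (norm := module) (2 : ℤ) • h0 - (2 : ℤ) • e - hx
  exact ⟨hy, by linear_combination (norm := module) (2 : ℤ) • h0 - hx - hy⟩

theorem Hex.regular (h : Hex r x y z) {s : ℤ} (hs : r = 2 * s + 1) (hr : ∀ w : Γ, r • w = 0 → w = 0)
    (hx : x + x ≠ 0) : Function.Injective ![0, x, -x, y, -y, z, -z] := by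
  have hy : y + y ≠ 0 := fun e => hx (h.cyc.of_two hs e).2
  have hz : z + z ≠ 0 := fun e => hx (h.cyc.cyc.of_two hs e).1
  have h0 : 0 ∉ hx6 (x - y) (y - z) (z - x) := by
    rw [← h.2, mem_hx6]
    have := hr x; have := hr y; have := hr z
    grind
  rw [mem_hx6] at h0
  have := h.1
  intro i j
  fin_cases i <;> fin_cases j <;> simp <;> grind

theorem exists_pair {s : Multiset Γ} (hs : s.map (fun w => -w) = s) (hc : 3 ≤ Multiset.card s)
    (h2 : ∀ a b c : Γ, a + a = 0 → b + b = 0 → c + c = 0 → a = b ∨ a = c ∨ b = c) :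
    ∃ x, ∃ t : Multiset Γ, s = x ::ₘ -x ::ₘ t ∧ t.map (fun w => -w) = t := by
  classical
  have key : ∃ x ∈ s, -x ∈ s.erase x := by
    by_cases h : ∃ x ∈ s, -x ≠ x
    · obtain ⟨x, hx, hne⟩ := h
      exact ⟨x, hx, (Multiset.mem_erase_of_ne hne).2 (hs ▸ Multiset.mem_map_of_mem _ hx)⟩
    · push Not at h
      obtain ⟨a, ha⟩ := Multiset.card_pos_iff_exists_mem.1 (show 0 < Multiset.card s by omega)
      obtain ⟨s, rfl⟩ := Multiset.exists_cons_of_mem ha
      obtain ⟨b, hb⟩ := Multiset.card_pos_iff_exists_mem.1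
        (show 0 < Multiset.card s by simp at hc; omega)
      obtain ⟨s, rfl⟩ := Multiset.exists_cons_of_mem hb
      obtain ⟨c, hc⟩ := Multiset.card_pos_iff_exists_mem.1
        (show 0 < Multiset.card s by simp at hc; omega)
      obtain ⟨s, rfl⟩ := Multiset.exists_cons_of_mem hc
      have ea := h a (by simp)
      have eb := h b (by simp)
      have ec := h c (by simp)
      rcases h2 a b c (by grind) (by grind) (by grind) with e | e | e
      · exact ⟨a, by simp, by simp [ea, ← e]⟩
      · exact ⟨a, by simp, by simp [ea, ← e]⟩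
      · exact ⟨b, by simp, by rw [Multiset.cons_swap]; simp [eb, ← e]⟩
  obtain ⟨x, hx, hx'⟩ := key
  have e : s = x ::ₘ -x ::ₘ (s.erase x).erase (-x) := by
    rw [Multiset.cons_erase hx', Multiset.cons_erase hx]
  refine ⟨x, _, e, ?_⟩
  rw [e, Multiset.map_cons, Multiset.map_cons, neg_neg, Multiset.cons_swap] at hs
  simpa using hs

theorem exists_form {s : Multiset Γ} (hs : s.map (fun w => -w) = s) (hc : Multiset.card s = 7)
    (h2 : ∀ a b c : Γ, a + a = 0 → b + b = 0 → c + c = 0 → a = b ∨ a = c ∨ b = c) :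
    ∃ e x y z, s = e ::ₘ hx6 x y z := by
  obtain ⟨x, s1, rfl, hs1⟩ := exists_pair hs (by omega) h2
  simp only [Multiset.card_cons] at hc
  obtain ⟨y, s2, rfl, hs2⟩ := exists_pair hs1 (by omega) h2
  simp only [Multiset.card_cons] at hc
  obtain ⟨z, s3, rfl, -⟩ := exists_pair hs2 (by omega) h2
  simp only [Multiset.card_cons] at hc
  obtain ⟨e, rfl⟩ := Multiset.card_eq_one.1 (show Multiset.card s3 = 1 by omega)
  refine ⟨e, x, y, z, ?_⟩
  simp only [hx6_def, ← Multiset.singleton_add]; abel

end Cfsg.Agent.H6.Ree
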