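import Cfsg.Agent.H6.Ree.Lam
import Cfsg.Agent.H6.Ree.Comb
import Cfsg.Agent.H7.BG.Rep

/-! Eigenvalues of semisimple elements of the small Ree groups. -/

set_option autoImplicit false

namespace Cfsg.Agent.H6.Ree

open Matrix Polynomial

variable {L : Type*} [Field L]

/-- `A` is diagonalizable with eigenvalues `d` -/
def Diag (A : M7 L) (d : Fin 7 → L) : Prop := ∃ Q Q' : M7 L, Q * Q' = 1 ∧ A * Q = Q * diagonal d

theorem exists_diag [IsAlgClosed L] {A : M7 L} {n : ℕ} (hn : (n : L) ≠ 0) (h : A ^ n = 1) :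
    ∃ d, Diag A d := by
  have hs : Module.End.IsSemisimple (toLin' A) := by
    refine Module.End.isSemisimple_of_squarefree_aeval_eq_zero (p := X ^ n - 1)
      (separable_X_pow_sub_C (1 : L) hn one_ne_zero).squarefree ?_
    rw [map_sub, aeval_X_pow, map_one, ← toLin'_pow, h, toLin'_one, sub_eq_zero]; rfl
  obtain ⟨b, μ, hb⟩ := H7.exists_eigenbasis hs
  have e : Module.finrank L (Fin 7 → L) = 7 := by simp
  let b' := b.reindex (finCongr e)
  refine ⟨μ ∘ (finCongr e).symm, (Pi.basisFun L _).toMatrix b', b'.toMatrix (Pi.basisFun L _),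
    by simp, ?_⟩
  ext i j
  have := congrFun (hb ((finCongr e).symm j)) i
  simp only [toLin'_apply, mulVec, dotProduct, Pi.smul_apply, smul_eq_mul] at this
  simpa [mul_apply, Module.Basis.toMatrix_apply, b', diagonal_apply, mul_comm] using this

theorem Diag.charpoly {A : M7 L} {d : Fin 7 → L} (h : Diag A d) : A.charpoly = ∏ i, (X - C (d i)) := by
  obtain ⟨Q, Q', h1, h2⟩ := h
  rw [charpoly_of_conj h1 h2, charpoly_diagonal]

theorem roots_prod' {ι : Type*} [Fintype ι] (d : ι → L) :
    (∏ i, (X - C (d i))).roots = Finset.univ.val.map d := by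
  rw [← roots_multiset_prod_X_sub_C (Finset.univ.val.map d), Multiset.map_map]; rfl

theorem Diag.roots {A : M7 L} {d : Fin 7 → L} (h : Diag A d) :
    A.charpoly.roots = Finset.univ.val.map d := by rw [h.charpoly, roots_prod']

theorem exists_perm_of_map_eq {ι α : Type*} [Fintype ι] {d d' : ι → α}
    (h : Finset.univ.val.map d = Finset.univ.val.map d') : ∃ π : Equiv.Perm ι, d ∘ π = d' := by
  classical
  have key : ∀ a, Fintype.card {i // d' i = a} = Fintype.card {i // d i = a} := fun a => by
    have := congrArg (Multiset.count a) h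
    rw [Multiset.count_map, Multiset.count_map] at this
    simp only [Fintype.card_subtype, Finset.card, Finset.filter_val, @eq_comm _ _ a]
    exact this.symm
  exact ⟨Equiv.ofFiberEquiv fun a => Fintype.equivOfCardEq (key a),
    funext fun i => Equiv.ofFiberEquiv_map _ i⟩

theorem Diag.perm {A : M7 L} {d d' : Fin 7 → L} (h : Diag A d)
    (e : Finset.univ.val.map d = Finset.univ.val.map d') : Diag A d' := by
  obtain ⟨π, rfl⟩ := exists_perm_of_map_eq e
  obtain ⟨Q, Q', h1, h2⟩ := h
  refine ⟨Q.submatrix id π, Q'.submatrix π id, by rw [submatrix_mul_equiv, h1]; rfl, ?_⟩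
  ext i j
  have := congrFun (congrFun h2 i) (π j)
  rw [mul_diagonal] at this ⊢
  exact this

theorem Diag.pow {A : M7 L} {d : Fin 7 → L} (h : Diag A d) (n : ℕ) :
    A ^ n = 1 ↔ ∀ i, d i ^ n = 1 := by
  obtain ⟨Q, Q', h1, h2⟩ := h
  have h3 : A ^ n * Q = Q * diagonal (d ^ n) := by
    rw [← diagonal_pow]; exact SemiconjBy.pow_right (a := Q) h2.symm n |>.symm
  constructor
  · intro h i
    rw [h, Matrix.one_mul] at h3
    have h4 : (1 : M7 L) = diagonal (d ^ n) := by
      have := congrArg (Q' * ·) h3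
      simpa only [← Matrix.mul_assoc, mul_eq_one_comm.1 h1, Matrix.one_mul] using this
    simpa using (congrFun (congrFun h4 i) i).symm
  · intro h
    have : d ^ n = fun _ => 1 := funext h
    rw [this, diagonal_one, Matrix.mul_one] at h3
    rw [← Matrix.mul_one (A ^ n), ← h1, ← Matrix.mul_assoc, h3]

theorem Diag.map {A : M7 L} {d : Fin 7 → L} (h : Diag A d) (σ : L →+* L) :
    Diag (A.map σ) (σ ∘ d) := by
  obtain ⟨Q, Q', h1, h2⟩ := h
  refine ⟨Q.map σ, Q'.map σ, by rw [← Matrix.map_mul, h1]; simp, ?_⟩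
  rw [← Matrix.map_mul, h2, Matrix.map_mul, diagonal_map (map_zero σ)]; rfl

theorem Diag.transpose [CharP L 3] {A : M7 L} {d : Fin 7 → L} (h : Diag A d)
    (hA : Aᵀ * JJ L * A = JJ L) (hd : ∀ i, d i ≠ 0) : Diag Aᵀ fun i => (d i)⁻¹ := by
  obtain ⟨Q, Q', h1, h2⟩ := h
  have hJ := (lam_facts (K := L)).2.1
  refine ⟨JJ L * Q, Q' * JJ L, ?_, ?_⟩
  · rw [Matrix.mul_assoc, ← Matrix.mul_assoc Q, h1, Matrix.one_mul, hJ]
  · have : diagonal d * diagonal (fun i => (d i)⁻¹) = 1 := by
      rw [diagonal_mul_diagonal, ← diagonal_one]; congr 1; ext i; exact mul_inv_cancel₀ (hd i)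
    calc _ = Aᵀ * JJ L * (Q * diagonal d) * diagonal fun i => (d i)⁻¹ := by
          simp only [Matrix.mul_assoc, this, Matrix.mul_one]
      _ = _ := by rw [← h2, ← Matrix.mul_assoc, hA]

/-- the value of an element of the additive version of the multiplicative group -/
def val (w : Additive Lˣ) : L := (Additive.toMul w : Lˣ)

theorem val_inj : Function.Injective (val : Additive Lˣ → L) := fun _ _ h =>
  Additive.toMul.injective (Units.ext h)
theorem val_zero : val (0 : Additive Lˣ) = 1 := rfl
theorem val_add (a b : Additive Lˣ) : val (a + b) = val a * val b := rfl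
theorem val_neg (a : Additive Lˣ) : val (-a) = (val a)⁻¹ := by simp [val]
theorem val_nsmul (n : ℕ) (a : Additive Lˣ) : val ((n : ℤ) • a) = val a ^ n := by simp [val]
theorem val_ne (a : Additive Lˣ) : val a ≠ 0 := Units.ne_zero _
theorem exists_val {c : L} (h : c ≠ 0) : ∃ a, val a = c := ⟨Additive.ofMul (Units.mk0 c h), rfl⟩

theorem val_three [CharP L 3] (w : Additive Lˣ) (h : w + w + w = 0) : w = 0 := by
  have h1 := congrArg val h
  rw [val_add, val_add, val_zero] at h1
  have h3 : (3 : L) = 0 := CharP.cast_eq_zero L 3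
  have : (val w - 1) ^ 3 = 0 := by linear_combination h1 + (val w - val w ^ 2) * h3
  exact val_inj (sub_eq_zero.1 (pow_eq_zero_iff (by norm_num) |>.1 this))

theorem val_two {w : Additive Lˣ} (h : w + w = 0) : val w = 1 ∨ val w = -1 :=
  mul_self_eq_one_iff.1 (congrArg val h)

theorem val_two' (a b c : Additive Lˣ) (ha : a + a = 0) (hb : b + b = 0) (hc : c + c = 0) :
    a = b ∨ a = c ∨ b = c := by
  rw [← val_inj.eq_iff, ← val_inj.eq_iff, ← val_inj.eq_iff]
  rcases val_two ha with h1 | h1 <;> rcases val_two hb with h2 | h2 <;>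
    rcases val_two hc with h3 | h3 <;> simp [h1, h2, h3]

theorem pow_three_smul [CharP L 3] (k : ℕ) (w : Additive Lˣ) (h : ((3 ^ k : ℕ) : ℤ) • w = 0) :
    w = 0 := by
  induction k with
  | zero => simpa using h
  | succ k ih =>
    exact ih (val_three _ (by rw [← h]; push_cast; module))

/-- the eigenvalues -/
def hexv {Γ : Type*} [AddCommGroup Γ] (e x y z : Γ) : Fin 7 → Γ := ![e, x, -x, y, -y, z, -z]

theorem map_hexv {Γ : Type*} [AddCommGroup Γ] (e x y z : Γ) :
    Finset.univ.val.map (hexv e x y z) = e ::ₘ hx6 x y z := rfl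

theorem map_pairs {Γ : Type*} [AddCommGroup Γ] (x y z : Γ) :
    Finset.univ.val.map (fun c => hexv 0 x y z (p1 c) + hexv 0 x y z (p2 c)) =
      {0, 0, 0} + hx6 x y z + M12 x y z := by
  change ({0 + x, 0 + -x, 0 + y, 0 + -y, 0 + z, 0 + -z, x + -x, x + y, x + -y, x + z, x + -z,
    -x + y, -x + -y, -x + z, -x + -z, y + -y, y + z, y + -z, -y + z, -y + -z, z + -z} :
      Multiset Γ) = _
  have e1 : -(x + y) = -x + -y := by abel
  have e2 : -(y + z) = -y + -z := by abel
  have e3 : z + x = x + z := by abel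
  have e4 : -(x + z) = -x + -z := by abel
  have e5 : -(x - y) = -x + y := by abel
  have e6 : -(y - z) = -y + z := by abel
  have e7 : -(z - x) = x + -z := by abel
  have e8 : z - x = -x + z := by abel
  simp only [M12, hx6_def, e1, e2, e3, e4, e5, e6, e7]
  simp only [Multiset.insert_eq_cons, ← Multiset.singleton_add, zero_add, add_neg_cancel, e8]
  simp only [sub_eq_add_neg]
  abel

theorem sum_pairs {Γ : Type*} [AddCommGroup Γ] (e x y z : Γ) :
    ∑ c, (hexv e x y z (p1 c) + hexv e x y z (p2 c)) = (6 : ℤ) • e := by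
  change ({e + x, e + -x, e + y, e + -y, e + z, e + -z, x + -x, x + y, x + -y, x + z, x + -z,
    -x + y, -x + -y, -x + z, -x + -z, y + -y, y + z, y + -z, -y + z, -y + -z, z + -z} :
      Multiset Γ).sum = _
  simp only [Multiset.insert_eq_cons, Multiset.sum_cons, Multiset.sum_singleton]
  abel

theorem hx6_sum {Γ : Type*} [AddCommGroup Γ] (x y z : Γ) : (hx6 x y z).sum = 0 := by simp [hx6]

theorem hx6_map {Γ : Type*} [AddCommGroup Γ] (r : ℤ) (x y z : Γ) :
    (hx6 x y z).map (fun w => r • w) = hx6 (r • x) (r • y) (r • z) := by simp [hx6]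

theorem exists_hex [IsAlgClosed L] [CharP L 3] {M : M14 L} (hM : Good M) {k : ℕ} {σ : L →+* L}
    (hσ : ∀ x, σ x = x ^ 3 ^ k) (hB : bB M = (bA M).map σ) {n : ℕ} (hn : (n : L) ≠ 0)
    (h : bA M ^ n = 1) : ∃ x y z : Additive Lˣ, Hex ((3 ^ k : ℕ) : ℤ) x y z ∧
      Diag (bA M) (val ∘ hexv 0 x y z) := by
  obtain ⟨d, hd⟩ := exists_diag hn h
  have hd0 : ∀ i, d i ≠ 0 := fun i e => by
    have := (hd.pow n).1 h i
    rw [e, zero_pow (by rintro rfl; simp at hn)] at this
    exact zero_ne_one this
  choose δ hδ using fun i => exists_val (hd0 i)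
  obtain rfl : d = val ∘ δ := (funext hδ).symm
  have h1 : (Finset.univ.val.map δ).map (fun w => -w) = Finset.univ.val.map δ := by
    apply Multiset.map_injective val_inj
    have := (hd.transpose hM.orth hd0).roots
    rw [charpoly_transpose, hd.roots] at this
    simp only [Multiset.map_map, Function.comp_def, val_neg] at this ⊢
    exact this.symm
  obtain ⟨e, x, y, z, h2⟩ := exists_form h1 (by simp) val_two'
  have hd' : Diag (bA M) (val ∘ hexv e x y z) :=
    hd.perm (by rw [← Multiset.map_map, ← Multiset.map_map, h2, map_hexv])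
  have h3 : Finset.univ.val.map (fun c => hexv e x y z (p1 c) + hexv e x y z (p2 c)) =
      (e ::ₘ hx6 x y z) + (e ::ₘ hx6 x y z).map (fun w => ((3 ^ k : ℕ) : ℤ) • w) +
        (e ::ₘ hx6 x y z) := by
    apply Multiset.map_injective val_inj
    have hA := (charpoly_monic (bA M)).ne_zero
    have hB' := (charpoly_monic (bB M)).ne_zero
    have := congrArg roots hM.charpoly_lam
    rw [roots_mul (mul_ne_zero (mul_ne_zero hA hB') hA), roots_mul (mul_ne_zero hA hB'), hB,
      (hd'.map σ).roots, hd'.roots] at this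
    obtain ⟨Q, Q', q1, q2⟩ := hd'
    rw [charpoly_lam_of_diag q1 q2, roots_prod'] at this
    simp only [← map_hexv, Multiset.map_add, Multiset.map_map, Function.comp_def, val_add,
      val_nsmul, hσ] at this ⊢
    exact this
  obtain rfl : e = 0 := by
    have a1 := congrArg Multiset.sum h1
    rw [Multiset.sum_map_neg, Multiset.map_id', h2, Multiset.sum_cons, hx6_sum] at a1
    have a2 := congrArg Multiset.sum h3
    rw [Multiset.map_cons, hx6_map] at a2
    simp only [Multiset.sum_add, Multiset.sum_cons, hx6_sum] at a2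
    have a3 := (sum_pairs e x y z).symm.trans a2
    exact pow_three_smul k e (by linear_combination (norm := module) -a3 - (2 : ℤ) • a1)
  have h4 : Rel ((3 ^ k : ℕ) : ℤ) x y z := by
    rw [map_pairs, Multiset.map_cons, hx6_map, smul_zero] at h3
    apply add_left_cancel (a := {0, 0, 0} + hx6 x y z)
    rw [h3]
    simp only [Multiset.insert_eq_cons, ← Multiset.singleton_add]
    abel
  obtain ⟨x', y', z', h5, h6⟩ := h4.exists_hex val_three
  exact ⟨x', y', z', h5, hd'.perm
    (by rw [← Multiset.map_map, ← Multiset.map_map, map_hexv, map_hexv, h6])⟩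

end Cfsg.Agent.H6.Ree
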