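import Cfsg.Agent.H6.Ree.Lam

/-! Some elements of the small Ree groups. -/

set_option autoImplicit false

namespace Cfsg.Agent.H6.Ree

open Matrix Cfsg.Lie

section
variable {K L : Type*} [CommRing K] [CommRing L]

/-- the action of `SL₂ × SL₂` -/
def Phi (a b c d a' b' c' d' : K) : M7 K :=
  !![a' * a, 0, -(b' * a), 0, -(a' * b), 0, -(b' * b);
    0, a' * a', 0, a' * b', 0, -(b' * b'), 0;
    -(c' * a), 0, d' * a, 0, c' * b, 0, d' * b;
    0, a' * c' + a' * c', 0, a' * d' + b' * c', 0, -(b' * d' + b' * d'), 0;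
    -(a' * c), 0, b' * c, 0, a' * d, 0, b' * d;
    0, -(c' * c'), 0, -(c' * d'), 0, d' * d', 0;
    -(c' * c), 0, d' * c, 0, c' * d, 0, d' * d]

/-- negative -/
def pn (p : P) : P := ps (-1) p

/-- the action of `SL₂ × SL₂` -/
def PhiP (a b c d a' b' c' d' : P) : PM := fun i j => (List.getD
  [[pm a' a, pc 0, pn (pm b' a), pc 0, pn (pm a' b), pc 0, pn (pm b' b)],
    [pc 0, pm a' a', pc 0, pm a' b', pc 0, pn (pm b' b'), pc 0],
    [pn (pm c' a), pc 0, pm d' a, pc 0, pm c' b, pc 0, pm d' b],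
    [pc 0, pa (pm a' c') (pm a' c'), pc 0, pa (pm a' d') (pm b' c'), pc 0,
      pn (pa (pm b' d') (pm b' d')), pc 0],
    [pn (pm a' c), pc 0, pm b' c, pc 0, pm a' d, pc 0, pm b' d],
    [pc 0, pn (pm c' c'), pc 0, pn (pm c' d'), pc 0, pm d' d', pc 0],
    [pn (pm c' c), pc 0, pm d' c, pc 0, pm c' d, pc 0, pm d' d]] i []).getD j (pc 0)

theorem evM_PhiP (x : Lean.RArray K) (a b c d a' b' c' d' : P) :
    evM x 7 7 (PhiP a b c d a' b' c' d') = Phi (ev x a) (ev x b) (ev x c) (ev x d) (ev x a')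
      (ev x b') (ev x c') (ev x d') := by
  ext i j
  fin_cases i <;> fin_cases j <;> simp [evM, PhiP, Phi, pn, ev_pc, ev_pm, ev_ps, ev_pa]

/-- the action of `SL₂ × SL₂` -/
def PhiH : Matrix (Fin 2) (Fin 2) K × Matrix (Fin 2) (Fin 2) K →* M7 K where
  toFun g := Phi (g.1 0 0) (g.1 0 1) (g.1 1 0) (g.1 1 1) (g.2 0 0) (g.2 0 1) (g.2 1 0) (g.2 1 1)
  map_one' := by ext i j; fin_cases i <;> fin_cases j <;> simp [Phi]
  map_mul' g h := by
    ext i j
    fin_cases i <;> fin_cases j <;> simp [Phi, mul_apply, Fin.sum_univ_succ] <;> ring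

theorem Good.eq_one [CharP K 3] {M : M14 K} (h : Good M) (h1 : bA M = 1) : M = 1 := by
  obtain ⟨f1, -, f3, -⟩ := lam_facts (K := K)
  ext k j
  have e := h.der j
  rw [h1, Matrix.one_mul, Matrix.mul_one] at e
  have e1 : (fun c => cK K 21 21 sN c (Fin.castAdd 7 j)) =
      ∑ i, M i j • fun c => cK K 21 21 sN c (Fin.castAdd 7 i) := by
    simp only [fun j => funext (f3 j).2]
    rw [e, Finset.sum_mul, map_sum]; simp
  have e2 : ∀ j, (cK K 21 21 siN *ᵥ fun c => cK K 21 21 sN c (Fin.castAdd 7 j)) (Fin.castAdd 7 k) =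
      (1 : M14 K) k j := fun j => by
    have := congrFun (congrFun f1 (Fin.castAdd 7 k)) (Fin.castAdd 7 j)
    refine this.trans ?_
    simp [one_apply, Fin.ext_iff]
  rw [← e2, e1, mulVec_sum, Finset.sum_apply]
  simp [mulVec_smul, e2, one_apply]

theorem inv_chk : (allB 12 fun r =>
    eqM 14 14 (mulP 14 14 14 (XT r (pv 0)) (XT r (pn (pv 0)))) oneP) = true := by decide +kernel

theorem isUnit_wd [CharP K 3] {w : List (ℕ × K)} (h : ∀ p ∈ w, p.1 < 12) : IsUnit (wd w) := by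
  refine List.prod_isUnit fun M hM => ?_
  obtain ⟨p, hp, rfl⟩ := List.mem_map.1 hM
  have := evM_eqM (.leaf p.2) (allB_sound inv_chk (h p hp))
  rw [evM_mulP, evM_XT, evM_XT, evM_oneP, ev_pv] at this
  exact IsUnit.of_mul_eq_one _ this

/-- constant words -/
def wC (t u v : ℤ) : List (ℕ × P) :=
  [(7, pc t), (6, pc t), (8, pc (t * t + u)), (9, pc (t * t * t + v)), (10, pc u), (11, pc v)]

/-- words in the Levi subgroup -/
def wB : List (ℕ × P) := [(7, pc 0), (6, pc 0), (8, pv 0), (9, pc 0), (10, pv 1), (11, pc 0)]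

/-- cube -/
def cbM (M : PM) : PM := mulP 7 7 7 M (mulP 7 7 7 M M)

theorem evM_cbM (x : Lean.RArray K) (M : PM) : evM x 7 7 (cbM M) = evM x 7 7 M ^ 3 := by
  rw [cbM, evM_mulP, evM_mulP, pow_three]

theorem fin_chk : (eqM 7 7 (wdA wB) (PhiP (pc 1) (pv 1) (pc 0) (pc 1) (pc 1) (pv 0) (pc 0) (pc 1)) &&
    eqM 7 7 (wdA (ng wB))
      (PhiP (pc 1) (pc 0) (pn (pv 1)) (pc 1) (pc 1) (pc 0) (pn (pv 0)) (pc 1)) &&
    eqM 7 7 (mulP 7 7 7 (mulP 7 7 7 (wdA (wC 0 0 1)) (wdA (ng (wC 0 0 1))))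
      (mulP 7 7 7 (wdA (wC 1 1 1)) (wdA (ng (wC 2 1 2)))))
      (PhiP (pc (-1)) (pc 0) (pc 0) (pc (-1)) (pc 1) (pc 0) (pc 0) (pc 1)) &&
    eqM 7 7 (cbM (cbM (wdA (wC 1 0 0)))) oneP && eq3 (cbM (wdA (wC 1 0 0)) 0 3) (pc 1)) = true := by
  decide +kernel

end

end Cfsg.Agent.H6.Ree
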