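import Cfsg.Agent.H6.Ree.Spec
import Cfsg.Agent.H6.Ree.Phi
import Cfsg.Agent.H6.SpField

/-! The 7-dimensional representation of the small Ree groups. -/

set_option autoImplicit false

namespace Cfsg.Agent.H6.Ree

open Matrix hiding zpow_mul zpow_sub one_zpow
open Cfsg.Lie

/-- exponents of the eigenvalues -/
def ex (s : ℕ) : Fin 7 → ℤ := ![3 * s + 2, 1, 3 * s + 1, 0, -(3 * s + 1), -1, -(3 * s + 2)]

theorem RR.conj_two {L G : Type*} [Field L] [CharP L 3] [Group G] [Finite G] {k : ℕ}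
    {ρ : G →* M7 L} (h : RR k ρ) {s : ℕ} (hs1 : 1 ≤ s) {g : G} {x : Lˣ} (hx : orderOf x = nu s)
    (hg : ρ g = diagonal fun i => ((x ^ ex s i : Lˣ) : L)) :
    orderOf g = nu s ∧ {c | Commute g c ∧ IsConj g c}.ncard ≤ 2 := by
  have hd : Diag (ρ g) fun i => ((x ^ ex s i : Lˣ) : L) := ⟨1, 1, by simp, by simp [hg]⟩
  have ho : orderOf g = nu s := by
    rw [← hx, orderOf_eq_orderOf_iff]
    intro n
    rw [h.pow_iff hd]
    refine ⟨fun e => Units.ext (by simpa [ex] using e 1), fun e i => ?_⟩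
    rw [← Units.val_pow_eq_pow_val, ← zpow_natCast, ← zpow_mul, mul_comm, zpow_mul, zpow_natCast,
      e, one_zpow, Units.val_one]
  have hu : 6 * s + 7 ≤ nu s := by unfold nu; nlinarith
  have g1 : g ≠ 1 := fun e => by rw [e, orderOf_one] at ho; omega
  have oo : Odd (orderOf g) := ho ▸ odd_nu s
  obtain ⟨d, hd', hi, -⟩ := h.regular (g := g) (by rw [ho]; unfold nu; omega)
    (sq_ne_one_of_odd oo g1)
  have hr : Reg ρ g 1 1 fun i => ((x ^ ex s i : Lˣ) : L) := ⟨by simp, by simp [hg], hd'.inj hd hi⟩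
  have h3 : (fun i => ((x ^ ex s i : Lˣ) : L)) 3 = 1 := by simp [ex]
  have oc : ∀ c, IsConj g c → Odd (orderOf c) := fun c hc => by
    obtain ⟨a, rfl⟩ := isConj_iff.1 hc; exact MulEquiv.orderOf_eq (MulAut.conj a) g ▸ oo
  refine ⟨ho, (Set.ncard_le_ncard_of_injOn (t := {((x ^ ex s 1 : Lˣ) : L), ((x ^ ex s 5 : Lˣ) : L)})
    (fun c => chi ρ 1 1 c 1) (fun c hc => ?_) fun c hc c' hc' e =>
      hr.eq_of_chi h hc.1 hc'.1 h3 (j := 1) (by decide) (oc c hc.2) (oc c' hc'.2) e).trans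
      (Set.ncard_insert_le _ _ |>.trans (by simp))⟩
  obtain ⟨π, hπ⟩ := hr.conj_perm hc.1 hc.2
  obtain ⟨n, hn⟩ := (IsOfFinOrder.mem_powers_iff_mem_zpowers (orderOf_pos_iff.1 (by omega))).2
    (Subgroup.zpow_mem_zpowers x (ex s (π 1)))
  simp only at hn
  have e1 : c = g ^ n := hr.eq_of_chi h hc.1 ((Commute.refl g).pow_right n) h3 (j := 1) (by decide)
    (oc c hc.2) (oo.of_dvd_nat (orderOf_pow_dvd n)) (by
      rw [hr.chi_pow (Commute.refl g), hr.chi_self, ← hπ]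
      simp only [Function.comp, ← hn]; simp [ex])
  have e2 : ∀ i, (nu s : ℤ) ∣ ex s (π 1) * ex s i - ex s (π i) := fun i => by
    have := congrFun hπ i
    rw [e1, hr.chi_pow (Commute.refl g), hr.chi_self] at this
    simp only [Function.comp, ← Units.val_pow_eq_pow_val, Units.val_inj] at this
    rw [← hx, orderOf_dvd_iff_zpow_eq_one, zpow_sub, this, zpow_mul, ← hn, ← zpow_natCast,
      ← zpow_natCast, ← zpow_mul, ← zpow_mul, mul_comm (n : ℤ), mul_inv_cancel]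
  have e3 : ∀ i, ex s (π 1) * ex s i ≠ (3 * s + 1) * (3 * s + 2) := fun i e => by
    have h1 : (nu s : ℤ) ∣ 1 - 2 * ex s (π i) := by
      have : 1 - 2 * ex s (π i) = 2 * (ex s (π 1) * ex s i - ex s (π i)) - 3 * nu s := by
        rw [e, nu]; push_cast; ring
      rw [this]
      exact ((e2 i).mul_left 2).sub (dvd_mul_left _ _)
    have hb : ∀ j, -(3 * s + 2) ≤ ex s j ∧ ex s j ≤ 3 * s + 2 := fun j => by
      fin_cases j <;> simp [ex] <;> omega
    have := hb (π i)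
    have h2 := Int.eq_zero_of_dvd_of_natAbs_lt_natAbs h1 (by omega)
    omega
  rw [← hπ]
  simp only [Function.comp]
  generalize ha : π 1 = a at e2 e3
  fin_cases a
  · exact (e3 2 (by simp [ex]; ring)).elim
  · exact Or.inl rfl
  · exact (e3 0 (by simp [ex])).elim
  · have := e2 (π.symm 1)
    simp [ex] at this
    have := Int.le_of_dvd one_pos this
    omega
  · exact (e3 6 (by simp [ex]; ring)).elim
  · exact Or.inr rfl
  · exact (e3 4 (by simp [ex]; ring)).elim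

section
variable {K : Type*} [Field K] [CharP K 3] [Finite K] {e : ℕ} {σ : K →+* K}

/-- the representation on the ideal -/
noncomputable def rhoK (h1 : ∀ x, σ (x ^ e) = x) (h2 : ∀ x, σ x = (x ^ e) ^ 3) :
    twistedG2 K e →* M7 K where
  toFun g := bA (g.1.1.submatrix eps eps)
  map_one' := by simp [bA_one]
  map_mul' a b := by
    rw [Subgroup.coe_mul, Units.val_mul, ← submatrix_mul_equiv _ _ _ eps,
      bA_mul (good_of_mem σ h1 h2 b.2).1.z]

variable (h1 : ∀ x, σ (x ^ e) = x) (h2 : ∀ x, σ x = (x ^ e) ^ 3)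

theorem rhoK_inj : Function.Injective (rhoK h1 h2) := by
  refine (injective_iff_map_eq_one _).2 fun g hg => Subtype.ext (Units.ext ?_)
  have := congrArg (fun M => M.submatrix eps.symm eps.symm) ((good_of_mem σ h1 h2 g.2).1.eq_one hg)
  simpa using this

theorem mem_range {w : List (ℕ × K)} (hw : w ∈ g2Words K e) :
    bA (wd w) ∈ MonoidHom.mrange (rhoK h1 h2) := by
  have h3 := (twist_gen σ h1 h2 hw).1
  have h4 := wordMat_eq h3
  have h5 : IsUnit (chevG2.wordMat K w) := by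
    have := (isUnit_wd h3).map (reindexAlgEquiv K K eps)
    rw [← h4] at this
    simpa using this
  exact ⟨⟨h5.unit, Subgroup.subset_closure ⟨w, hw, rfl⟩⟩, congrArg bA h4⟩

variable {θ : K →+* K} (h3 : ∀ x, θ x = x ^ e)
include h3

theorem mem_C (x : Lean.RArray K) (t u v : ℤ) :
    evM x 7 7 (wdA (wC t u v)) ∈ MonoidHom.mrange (rhoK h1 h2) ∧
      evM x 7 7 (wdA (ng (wC t u v))) ∈ MonoidHom.mrange (rhoK h1 h2) := by
  have e1 : (wC t u v).map (fun p => (p.1, ev x p.2)) = reeWordU e (t : K) u v := by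
    rw [reeWordU_eq, map_wU]
    simp [wC, ev_pc, ← h3]
  rw [evM_wdA _ (ng_lt _), evM_wdA _ (by simp [wC]), map_ng, e1]
  exact ⟨mem_range h1 h2 ⟨_, _, _, Or.inl rfl⟩, mem_range h1 h2 ⟨_, _, _, Or.inr rfl⟩⟩

/-- the twisted action of `SL₂` -/
def psi (θ : K →+* K) : Matrix (Fin 2) (Fin 2) K →* M7 K :=
  PhiH.comp ((MonoidHom.id _).prod θ.mapMatrix.toMonoidHom)

omit [CharP K 3] [Finite K] h3 in
theorem psi_apply (a b c d : K) : psi θ !![a, b; c, d] = Phi a b c d (θ a) (θ b) (θ c) (θ d) := rfl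

theorem mem_B (u : K) : psi θ !![1, u; 0, 1] ∈ MonoidHom.mrange (rhoK h1 h2) ∧
    psi θ !![1, 0; -u, 1] ∈ MonoidHom.mrange (rhoK h1 h2) := by
  have hc := fin_chk
  simp only [Bool.and_eq_true] at hc
  let x : Lean.RArray K := .branch 1 (.leaf (θ u)) (.leaf u)
  have v0 : ev x (pv 0) = θ u := ev_pv _ _
  have v1 : ev x (pv 1) = u := ev_pv _ _
  have e1 : wB.map (fun p => (p.1, ev x p.2)) = reeWordU e 0 u 0 := by
    rw [reeWordU_eq, map_wU]
    simp [wB, ev_pc, ← h3, v0, v1]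
  have a1 := evM_eqM x hc.1.1.1.1
  have a2 := evM_eqM x hc.1.1.1.2
  rw [evM_wdA _ (by simp [wB]), evM_PhiP, e1] at a1
  rw [evM_wdA _ (ng_lt _), evM_PhiP, map_ng, e1] at a2
  simp only [pn, ev_ps, ev_pc, v0, v1, Int.cast_one, Int.cast_zero, Int.cast_neg, neg_one_mul] at a1 a2
  simp only [psi_apply, map_one, map_zero, map_neg, ← a1, ← a2]
  exact ⟨mem_range h1 h2 ⟨_, _, _, Or.inl rfl⟩, mem_range h1 h2 ⟨_, _, _, Or.inr rfl⟩⟩

theorem mem_psi {a b c d : K} (hd : a * d - b * c = 1) (hc : c ≠ 0) :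
    psi θ !![a, b; c, d] ∈ MonoidHom.mrange (rhoK h1 h2) := by
  have : !![a, b; c, d] = !![1, (a - 1) / c; 0, 1] * !![1, 0; -(-c), 1] * !![1, (d - 1) / c; 0, 1] := by
    ext i j
    fin_cases i <;> fin_cases j <;> simp [mul_apply, Fin.sum_univ_succ] <;> field_simp
    all_goals first | linear_combination -hd | linear_combination hd | ring
  rw [this, map_mul, map_mul]
  exact mul_mem (mul_mem (mem_B h1 h2 h3 _).1 (mem_B h1 h2 h3 _).2) (mem_B h1 h2 h3 _).1

omit [CharP K 3] [Finite K] h3 in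
theorem sq_of_psi {g : Matrix (Fin 2) (Fin 2) K} (hd : g.det = 1) (h : psi θ g = 1) : g ^ 2 = 1 := by
  rw [eta_fin_two g] at hd h ⊢
  generalize g 0 0 = a, g 0 1 = b, g 1 0 = c, g 1 1 = d at hd h ⊢
  rw [psi_apply] at h
  have a1 : θ a * a = 1 := congrFun (congrFun h 0) 0
  have a2 : -(θ a * c) = 0 := congrFun (congrFun h 4) 0
  have a3 : -(θ a * b) = 0 := congrFun (congrFun h 0) 4
  have a4 : θ a * d = 1 := congrFun (congrFun h 4) 4
  have a0 : θ a ≠ 0 := left_ne_zero_of_mul_eq_one a1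
  obtain rfl : c = 0 := by simpa [a0] using a2
  obtain rfl : b = 0 := by simpa [a0] using a3
  obtain rfl : a = d := mul_left_cancel₀ a0 (a1.trans a4.symm)
  rw [det_fin_two_of] at hd
  ext i j
  fin_cases i <;> fin_cases j <;> simp [sq, mul_apply, Fin.sum_univ_succ] <;> linear_combination hd

end

theorem Phi_diag {K L : Type*} [Field K] [Field L] (f : K →+* L) (μ : Kˣ) (s : ℕ) :
    f.mapMatrix (Phi (μ ^ (6 * s + 3) : K) 0 0 (μ ^ (6 * s + 3) : K)⁻¹ μ 0 0 (μ : K)⁻¹) =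
      diagonal fun i => ((Units.map f.toMonoidHom (μ ^ 2) ^ ex s i : Lˣ) : L) := by
  have : f μ ≠ 0 := (map_ne_zero f).2 μ.ne_zero
  ext i j
  fin_cases i <;> fin_cases j <;> simp [Phi, ex, zpow_add₀, this, zpow_mul] <;>
    (try field_simp) <;> ring

theorem ree_cube {K : Type*} [Field K] [Fintype K] {m : ℕ} (hm : 1 ≤ m)
    (hK : Fintype.card K = 3 ^ (2 * m + 1)) (N : ℕ) :
    ∃ (H : Type) (_ : Group H) (_ : Fintype H), N < Fintype.card H ∧
      Set.range (orderOf : H → ℕ) = Set.range (orderOf :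
        twistedG2 K (3 ^ m) × twistedG2 K (3 ^ m) × twistedG2 K (3 ^ m) → ℕ) := by
  have : CharP K 3 := charP_of_card_eq_prime_pow hK
  let L := AlgebraicClosure K
  let f := algebraMap K L
  let σ := iterateFrobenius K 3 (m + 1)
  let θ := iterateFrobenius K 3 m
  have h3 : ∀ x, θ x = x ^ 3 ^ m := fun _ => rfl
  have h1 : ∀ x, σ (x ^ 3 ^ m) = x := fun x => by
    rw [iterateFrobenius_def, ← pow_mul, ← pow_add, show m + (m + 1) = 2 * m + 1 by ring, ← hK,
      FiniteField.pow_card]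
  have h2 : ∀ x, σ x = (x ^ 3 ^ m) ^ 3 := fun x => by rw [iterateFrobenius_def, ← pow_mul, pow_succ]
  let ρ : twistedG2 K (3 ^ m) →* M7 L := f.mapMatrix.toMonoidHom.comp (rhoK h1 h2)
  have hρ : ∀ g, ρ g = f.mapMatrix (rhoK h1 h2 g) := fun _ => rfl
  have finj : Function.Injective (f.mapMatrix : M7 K → M7 L) := map_injective f.injective
  have hR : RR (m + 1) ρ := by
    refine ⟨finj.comp (rhoK_inj h1 h2), fun g => ((good_of_mem σ h1 h2 g.2).1.map f).orth,
      fun g hg => ?_⟩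
    obtain ⟨a, b⟩ := good_of_mem σ h1 h2 g.2
    refine exists_hex (a.map f) (σ := iterateFrobenius L 3 (m + 1)) (fun _ => rfl) ?_
      (n := orderOf g) (by rwa [Ne, CharP.cast_eq_zero_iff L 3]) ?_
    · ext i j
      have := congrArg f (congrFun (congrFun b i) j)
      simpa [σ, iterateFrobenius_def, bA, bB] using this
    · change ρ g ^ _ = 1
      rw [← map_pow, pow_orderOf_eq_one, map_one]
  obtain ⟨s, hs⟩ : Odd (3 ^ m) := Odd.pow (by decide)
  have hs1 : 1 ≤ s := by have := Nat.pow_le_pow_right (show 0 < 3 by decide) hm; omega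
  have hq : Fintype.card K = 2 * nu s + 1 := by
    rw [hK, pow_succ, mul_comm 2 m, pow_mul, hs, nu]; ring
  have hc := fin_chk
  simp only [Bool.and_eq_true] at hc
  let x0 : Lean.RArray K := .leaf 0
  have c3 : (3 : K) = 0 := CharP.cast_eq_zero K 3
  -- the involution
  obtain ⟨t, ht⟩ : PhiH (-1, 1) ∈ MonoidHom.mrange (rhoK h1 h2) := by
    have a1 := evM_eqM x0 hc.1.1.2
    rw [evM_mulP, evM_mulP, evM_mulP, evM_PhiP] at a1
    have := mul_mem (mul_mem (mem_C h1 h2 h3 x0 0 0 1).1 (mem_C h1 h2 h3 x0 0 0 1).2)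
      (mul_mem (mem_C h1 h2 h3 x0 1 1 1).1 (mem_C h1 h2 h3 x0 2 1 2).2)
    rw [a1] at this
    simpa [PhiH, ev_pc] using this
  have tc : ∀ {c g}, rhoK h1 h2 c = psi θ g → Commute t c := fun {c g} hc => by
    apply rhoK_inj h1 h2
    rw [map_mul, map_mul, ht, hc]
    exact (Commute.map (x := (-1, 1)) (y := (g, θ.mapMatrix g))
      (Prod.ext (Commute.neg_one_left g) (Commute.one_left _)) PhiH).eq
  have t2 : t ^ 2 = 1 := rhoK_inj h1 h2 (by
    rw [map_pow, ht, ← map_pow, map_one, ← map_one PhiH]; simp [Prod.one_eq_mk])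
  have t1 : t ≠ 1 := fun e => by
    rw [e, map_one] at ht
    have : (1 : K) = 1 * -1 := by simpa [PhiH, Phi] using congrFun (congrFun ht 0) 0
    exact one_ne_zero (by linear_combination c3 - this : (1 : K) = 0)
  -- the split torus
  obtain ⟨μ, hμ⟩ := IsCyclic.exists_ofOrder_eq_natCard (α := Kˣ)
  rw [Nat.card_units, Nat.card_eq_fintype_card, hq, Nat.add_sub_cancel] at hμ
  have l0 : σ μ ≠ 0 := (map_ne_zero σ).2 μ.ne_zero
  obtain ⟨s₁, hs₁⟩ : psi θ !![σ μ, 0; 0, (σ μ)⁻¹] ∈ MonoidHom.mrange (rhoK h1 h2) := by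
    have : !![σ μ, 0; 0, (σ μ)⁻¹] = !![1, 0; -1, 1] * !![σ μ, 0; σ μ, (σ μ)⁻¹] := by simp
    rw [this, map_mul]
    exact mul_mem (mem_B h1 h2 h3 _).2 (mem_psi h1 h2 h3 (by simp [l0]) l0)
  obtain ⟨o1, c1⟩ := hR.conj_two hs1 (g := s₁) (x := Units.map f.toMonoidHom (μ ^ 2)) (by
    rw [orderOf_injective _ (Units.map_injective f.injective), orderOf_pow' _ two_ne_zero, hμ]
    simp) (by
    have e1 : θ (σ μ) = μ := by rw [h3, ← map_pow, h1]
    have e2 : σ μ = μ ^ (6 * s + 3) := by rw [h2, hs, ← pow_mul]; congr 1; ring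
    rw [hρ, hs₁, psi_apply, map_inv₀, e1, e2, map_zero]
    exact Phi_diag f μ s)
  -- the non-split torus
  obtain ⟨τ, hτ, -⟩ := exists_sl2_order_succ K
  obtain ⟨s₂, hs₂⟩ := mem_psi h1 h2 h3 (a := 0) (b := -1) (c := 1) (d := τ) (by simp) one_ne_zero
  have o2 : 2 * nv s ∣ orderOf s₂ := by
    have := sq_of_psi (θ := θ) (g := !![0, -1; 1, τ] ^ orderOf s₂) (by simp)
      (by rw [map_pow, ← hs₂, ← map_pow, pow_orderOf_eq_one, map_one])
    rw [← pow_mul, ← orderOf_dvd_iff_pow_eq_one, hτ, hq] at this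
    exact Nat.dvd_of_mul_dvd_mul_right two_pos (by convert this using 1; simp only [nu, nv]; ring)
  -- unipotent elements
  obtain ⟨n, hn⟩ := (mem_C h1 h2 h3 x0 1 0 0).1
  have n9 : n ^ 9 = 1 := rhoK_inj h1 h2 (by
    have := evM_eqM x0 hc.1.2
    rwa [evM_cbM, evM_cbM, evM_oneP, ← hn, ← pow_mul, ← map_pow, ← map_one (rhoK h1 h2)] at this)
  have n3 : n ^ 3 ≠ 1 := fun e => by
    have a1 := congrFun (congrFun (evM_cbM x0 (wdA (wC 1 0 0))) 0) 3
    rw [← hn, ← map_pow, e, map_one] at a1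
    simpa [ev_pc] using (ev_eq3 x0 hc.2).symm.trans a1
  obtain ⟨y, hy⟩ := (mem_B h1 h2 h3 1).1
  have y3 : y ^ 3 = 1 := rhoK_inj h1 h2 (by
    rw [map_pow, hy, ← map_pow, map_one, ← map_one (psi θ)]
    congr 1
    ext i j
    fin_cases i <;> fin_cases j <;> simp [pow_three]
    linear_combination c3)
  let W : AddSubgroup (Fin 7 → L) :=
    { carrier := {w | (∀ i, w i ∈ f.range) ∧ ρ t *ᵥ w = -w}
      add_mem' := fun ha hb => ⟨fun i => add_mem (ha.1 i) (hb.1 i), by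
        rw [mulVec_add, ha.2, hb.2, neg_add]⟩
      zero_mem' := ⟨fun _ => zero_mem _, by simp⟩
      neg_mem' := fun ha => ⟨fun i => neg_mem (ha.1 i), by rw [mulVec_neg, ha.2]⟩ }
  have : Finite W := Set.Finite.subset (Set.finite_range fun v : Fin 7 → K => f ∘ v)
    fun w hw => by choose v hv using hw.1; exact ⟨v, funext hv⟩
  refine hR.main (s := s) (by rw [pow_succ, hs]; ring) hs1 t2 t1 o1 (tc hs₁) c1 o2 (tc hs₂) n9 n3 W
    (fun c hc w hw => ⟨fun i => ?_, ?_⟩) (fun w hw => hw.2)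
    (tc hy) y3 (w := Pi.single 6 1) ⟨fun i => ?_, ?_⟩ (fun e => ?_) N
  · change ∑ j, f (rhoK h1 h2 c i j) * w j ∈ f.range
    exact sum_mem fun j _ => mul_mem (f.mem_range_self _) (hw.1 j)
  · rw [mulVec_mulVec, (hc.map ρ).eq, ← mulVec_mulVec, hw.2, mulVec_neg]
  · rw [Pi.single_apply]; split_ifs <;> simp
  · rw [hρ, ht]
    ext i
    fin_cases i <;> simp [PhiH, Phi]
  · have := congrFun e 0
    rw [hρ, hy, psi_apply, ← map_one f.mapMatrix, ← map_sub, ← map_pow] at this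
    simp [Phi, sq, mul_apply, Fin.sum_univ_succ, one_apply] at this
    have h4 : f 1 = 0 := by rw [map_one]; linear_combination CharP.cast_eq_zero L 3 + this
    simp at h4

end Cfsg.Agent.H6.Ree
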