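import Cfsg.Agent.H6.Ree.Tab

/-! Invariants of the elements of `G₂` in characteristic 3 and of the small Ree groups. -/

set_option autoImplicit false

namespace Cfsg.Agent.H6.Ree

open Matrix Cfsg.Lie

/-- 7 x 7 matrices -/
abbrev M7 (K : Type*) := Matrix (Fin 7) (Fin 7) K
/-- 14 x 14 matrices -/
abbrev M14 (K : Type*) := Matrix (Fin 14) (Fin 14) K

/-- first block -/
def lo (i : Fin 7) : Fin 14 := Fin.castAdd 7 i
/-- second block -/
def hi (i : Fin 7) : Fin 14 := Fin.natAdd 7 i

theorem lt_map {α β : Type*} {w : List (ℕ × α)} (h : ∀ p ∈ w, p.1 < 12) (f : α → β) :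
    ∀ p ∈ w.map (fun p => (p.1, f p.2)), p.1 < 12 := by
  simp only [List.mem_map]; rintro _ ⟨p, hp, rfl⟩; exact h p hp

section
variable {K L : Type*} [CommRing K] [CommRing L]

/-- action on the ideal -/
def bA (M : M14 K) : M7 K := M.submatrix lo lo
/-- action on the quotient -/
def bB (M : M14 K) : M7 K := M.submatrix hi hi
/-- the invariant form -/
def JJ (K : Type*) [CommRing K] : M7 K := cK K 7 7 109569290223188478600
/-- the adjoint action on the ideal -/
def DD (K : Type*) [CommRing K] (j : Fin 14) : M7 K := cK K 7 7 (dt j)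

/-- the invariants -/
structure Good (M : M14 K) : Prop where
  z : ∀ i j : Fin 7, M (hi i) (lo j) = 0
  orth : (bA M)ᵀ * JJ K * bA M = JJ K
  der : ∀ j, bA M * DD K j = (∑ i, M i j • DD K i) * bA M

theorem sum14 {β : Type*} [AddCommMonoid β] (f : Fin 14 → β) :
    ∑ i, f i = ∑ i : Fin 7, f (lo i) + ∑ i : Fin 7, f (hi i) :=
  Fin.sum_univ_add (a := 7) (b := 7) f

theorem bA_mul {M N : M14 K} (h : ∀ i j : Fin 7, N (hi i) (lo j) = 0) :
    bA (M * N) = bA M * bA N := by
  ext i j
  simp [bA, mul_apply, sum14, h]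

theorem bB_mul {M N : M14 K} (h : ∀ i j : Fin 7, M (hi i) (lo j) = 0) :
    bB (M * N) = bB M * bB N := by
  ext i j
  simp [bB, mul_apply, sum14, h]

theorem bA_one : bA (1 : M14 K) = 1 := by
  ext i j; simp [bA, one_apply, Fin.ext_iff, lo]

theorem bB_one : bB (1 : M14 K) = 1 := by
  ext i j; simp [bB, one_apply, Fin.ext_iff, hi]

theorem Good.one : Good (1 : M14 K) where
  z i j := by
    have := j.2
    rw [one_apply_ne]; intro h; simp [Fin.ext_iff, lo, hi] at h; omega
  orth := by simp [bA_one]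
  der j := by simp [bA_one, one_apply]

theorem Good.mul {M N : M14 K} (hM : Good M) (hN : Good N) : Good (M * N) where
  z i j := by simp [mul_apply, sum14, hM.z, hN.z]
  orth := by
    rw [bA_mul hN.z, transpose_mul]
    calc _ = (bA N)ᵀ * ((bA M)ᵀ * JJ K * bA M) * bA N := by simp only [Matrix.mul_assoc]
      _ = _ := by rw [hM.orth, hN.orth]
  der j := by
    rw [bA_mul hN.z, Matrix.mul_assoc, hN.der, ← Matrix.mul_assoc, ← Matrix.mul_assoc, Finset.mul_sum]
    congr 1
    simp only [Matrix.mul_smul, hM.der, mul_apply, Finset.sum_smul, Finset.sum_mul,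
      Finset.smul_sum, Matrix.smul_mul, smul_smul]
    rw [Finset.sum_comm]
    simp only [mul_comm]

theorem Good.map {M : M14 K} (h : Good M) (f : K →+* L) : Good (M.map f) where
  z i j := by simp [h.z]
  orth := by
    have := congrArg f.mapMatrix h.orth
    simp only [map_mul, RingHom.mapMatrix_apply, JJ, cK_map] at this
    exact this
  der j := by
    have := congrArg f.mapMatrix (h.der j)
    simp only [map_mul, map_sum, RingHom.mapMatrix_apply, DD, cK_map] at this
    refine this.trans ?_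
    congr 2
    ext i a b
    simp [cK, DD]

/-- check of the invariants -/
def goodChk (M : PM) : Bool :=
  (allB 7 fun i => allB 7 fun j => z3 (M (7 + i) j)) &&
  eqM 7 7 (mulP 7 7 7 (mulP 7 7 7 (trP M) (cM 7 109569290223188478600)) M)
    (cM 7 109569290223188478600) &&
  allB 14 fun j => eqM 7 7 (mulP 7 7 7 M (cM 7 (dt j)))
    (mulP 7 7 7 (memo 7 7 fun a b => psum 14 fun i => ps (dig (dt i) (7 * a + b)) (M i j)) M)

theorem good_of_chk [CharP K 3] (c : Lean.RArray K) {M : PM} (h : goodChk M = true) :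
    Good (evM c 14 14 M) := by
  simp only [goodChk, Bool.and_eq_true] at h
  have hA : bA (evM c 14 14 M) = evM c 7 7 M := rfl
  refine ⟨fun i j => ev_z3 c (allB_sound (allB_sound h.1.1 i.2) j.2), ?_, fun j => ?_⟩
  · have := evM_eqM c h.1.2
    rwa [evM_mulP, evM_mulP, evM_trP, evM_cM] at this
  · have := evM_eqM c (allB_sound h.2 j.2)
    rw [evM_mulP, evM_mulP, evM_cM, evM_memo] at this
    refine this.trans ?_
    rw [hA]
    congr 1
    ext a b
    simp [evM, ev_psum, ev_ps, Matrix.sum_apply, DD, cK, mul_comm]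

theorem good_chk : (allB 12 fun r => goodChk (XT r (pv 0))) = true := by decide +kernel

theorem good_Xm [CharP K 3] {r : ℕ} (hr : r < 12) (t : K) : Good (Xm r t) := by
  have := good_of_chk (.leaf t) (allB_sound good_chk hr)
  rwa [evM_XT, ev_pv] at this

theorem bA_Xm_map (f : K →+* L) (r : ℕ) (t : K) : (bA (Xm r t)).map f = bA (Xm r (f t)) := by
  ext i j
  simp [bA, Xm, cK, one_apply]

/-- the product of the root elements of a word -/
def wd (w : List (ℕ × K)) : M14 K := (w.map fun p => Xm p.1 p.2).prod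

theorem good_wd [CharP K 3] {w : List (ℕ × K)} (h : ∀ p ∈ w, p.1 < 12) : Good (wd w) := by
  induction w with
  | nil => exact Good.one
  | cons p w ih =>
    exact (good_Xm (h p List.mem_cons_self) _).mul (ih fun q hq => h q (List.mem_cons_of_mem _ hq))

/-- action of a word on the ideal -/
def wdA : List (ℕ × P) → PM
  | [] => oneP
  | p :: w => mulP 7 7 7 (XT p.1 p.2) (wdA w)

/-- action of a word on the quotient -/
def wdB : List (ℕ × P) → PM
  | [] => oneP
  | p :: w => mulP 7 7 7 (fun i j => XT p.1 p.2 (7 + i) (7 + j)) (wdB w)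

theorem evM_wdA [CharP K 3] (c : Lean.RArray K) {w : List (ℕ × P)} (h : ∀ p ∈ w, p.1 < 12) :
    evM c 7 7 (wdA w) = bA (wd (w.map fun p => (p.1, ev c p.2))) := by
  induction w with
  | nil => rw [wdA, evM_oneP]; exact bA_one.symm
  | cons p w ih =>
    have hw : ∀ q ∈ w, q.1 < 12 := fun q hq => h q (List.mem_cons_of_mem _ hq)
    rw [wdA, evM_mulP, ih hw]
    refine Eq.trans ?_ (bA_mul (M := Xm p.1 (ev c p.2)) (good_wd (lt_map hw (ev c))).z).symm
    rw [← evM_XT]; rfl

theorem evM_wdB [CharP K 3] (c : Lean.RArray K) {w : List (ℕ × P)} (h : ∀ p ∈ w, p.1 < 12) :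
    evM c 7 7 (wdB w) = bB (wd (w.map fun p => (p.1, ev c p.2))) := by
  induction w with
  | nil => rw [wdB, evM_oneP]; exact bB_one.symm
  | cons p w ih =>
    have hw : ∀ q ∈ w, q.1 < 12 := fun q hq => h q (List.mem_cons_of_mem _ hq)
    rw [wdB, evM_mulP, ih hw]
    refine Eq.trans ?_ (bB_mul (good_Xm (h p List.mem_cons_self) _).z).symm
    rw [← evM_XT]; rfl

theorem bA_wd_map [CharP K 3] (f : K →+* K) {w : List (ℕ × K)} (h : ∀ p ∈ w, p.1 < 12) :
    (bA (wd w)).map f = bA (wd (w.map fun p => (p.1, f p.2))) := by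
  induction w with
  | nil => simp [wd, bA_one]
  | cons p w ih =>
    have hw : ∀ q ∈ w, q.1 < 12 := fun q hq => h q (List.mem_cons_of_mem _ hq)
    have h1 := bA_mul (M := Xm p.1 p.2) (good_wd hw).z
    have h2 := bA_mul (M := Xm p.1 (f p.2))
      (good_wd (lt_map hw f)).z
    refine (congrArg (·.map f) h1).trans (Eq.trans ?_ h2.symm)
    simp only [Matrix.map_mul, ih hw, bA_Xm_map]

/-- the word for the positive generators; variables `T, t, U, u, V, v` -/
def wU : List (ℕ × P) :=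
  [(7, pv 0), (6, pv 1), (8, pa (pm (pv 0) (pv 1)) (pv 2)),
    (9, pa (pm (pm (pv 0) (pv 0)) (pv 1)) (pv 4)), (10, pv 3), (11, pv 5)]

/-- cube -/
def cb (p : P) : P := pm p (pm p p)

/-- its twist -/
def wU' : List (ℕ × P) :=
  [(7, pv 1), (6, cb (pv 0)), (8, pa (pm (pv 1) (cb (pv 0))) (pv 3)),
    (9, pa (pm (pm (pv 1) (pv 1)) (cb (pv 0))) (pv 5)), (10, cb (pv 2)), (11, cb (pv 4))]

/-- the negative of a word -/
def ng (w : List (ℕ × P)) : List (ℕ × P) := w.map fun p => (11 - p.1, ps (-1) p.2)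

theorem twist_chk : (eqM 7 7 (wdB wU) (wdA wU') && eqM 7 7 (wdB (ng wU)) (wdA (ng wU'))) = true := by
  decide +kernel

/-- context with six variables -/
def c6 (a b c d e f : K) : Lean.RArray K :=
  .branch 3 (.branch 1 (.leaf a) (.branch 2 (.leaf b) (.leaf c)))
    (.branch 4 (.leaf d) (.branch 5 (.leaf e) (.leaf f)))

theorem map_wU (a b c d e f : K) : wU.map (fun p => (p.1, ev (c6 a b c d e f) p.2)) =
    [(7, a), (6, b), (8, a * b + c), (9, a * a * b + e), (10, d), (11, f)] := by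
  simp only [wU, List.map, ev_pa, ev_pm, ev_pv]; rfl

theorem map_wU' (a b c d e f : K) : wU'.map (fun p => (p.1, ev (c6 a b c d e f) p.2)) =
    [(7, b), (6, a ^ 3), (8, b * a ^ 3 + d), (9, b * b * a ^ 3 + f), (10, c ^ 3), (11, e ^ 3)] := by
  simp only [wU', List.map, ev_pa, ev_pm, ev_pv, cb, pow_three]; rfl

theorem map_ng (c : Lean.RArray K) (w : List (ℕ × P)) : (ng w).map (fun p => (p.1, ev c p.2)) =
    (w.map fun p => (p.1, ev c p.2)).map fun p => (11 - p.1, -p.2) := by
  simp [ng, ev_ps]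

end

section
variable {K : Type*} [Field K] [CharP K 3]

theorem wordMat_eq {w : List (ℕ × K)} (h : ∀ p ∈ w, p.1 < 12) :
    (chevG2.wordMat K w).submatrix eps eps = wd w := by
  induction w with
  | nil => simp [ChevalleyDatum.wordMat, wd]
  | cons p w ih =>
    have := ih fun q hq => h q (List.mem_cons_of_mem _ hq)
    simp only [ChevalleyDatum.wordMat, wd, List.map_cons, List.prod_cons] at this ⊢
    rw [← submatrix_mul_equiv _ _ _ eps, this, x_eq (h p List.mem_cons_self)]

theorem reeWordU_eq (e : ℕ) (t u v : K) : reeWordU e t u v =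
    wU.map (fun p => (p.1, ev (c6 (t ^ e) t (u ^ e) u (v ^ e) v) p.2)) := by
  rw [map_wU, reeWordU, pow_succ, pow_succ, two_mul, pow_add]; rfl

theorem reeWordV_eq (e : ℕ) (t u v : K) : reeWordV e t u v =
    (ng wU).map (fun p => (p.1, ev (c6 (t ^ e) t (u ^ e) u (v ^ e) v) p.2)) := by
  rw [map_ng, ← reeWordU_eq]; rfl

theorem wU_lt : ∀ p ∈ wU, p.1 < 12 := by decide
theorem wU'_lt : ∀ p ∈ wU', p.1 < 12 := by decide
theorem ng_lt (w : List (ℕ × P)) : ∀ p ∈ ng w, p.1 < 12 := by
  simp only [ng, List.mem_map]; rintro _ ⟨p, -, rfl⟩; simp only; omega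

theorem twist_gen {e : ℕ} (σ : K →+* K) (h1 : ∀ x, σ (x ^ e) = x) (h2 : ∀ x, σ x = (x ^ e) ^ 3)
    {w : List (ℕ × K)} (hw : w ∈ g2Words K e) :
    (∀ p ∈ w, p.1 < 12) ∧ bB (wd w) = (bA (wd w)).map σ := by
  have hc := twist_chk
  rw [Bool.and_eq_true] at hc
  obtain ⟨t, u, v, rfl | rfl⟩ := hw
  · rw [reeWordU_eq]
    refine ⟨lt_map wU_lt _, ?_⟩
    rw [← evM_wdB _ wU_lt, evM_eqM _ hc.1, evM_wdA _ wU'_lt, bA_wd_map σ (lt_map wU_lt _),
      map_wU, map_wU']
    simp only [List.map, map_add, map_mul, h1, ← h2]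
  · rw [reeWordV_eq]
    refine ⟨lt_map (ng_lt _) _, ?_⟩
    rw [← evM_wdB _ (ng_lt _), evM_eqM _ hc.2, evM_wdA _ (ng_lt _),
      bA_wd_map σ (lt_map (ng_lt _) _), map_ng, map_ng, map_wU, map_wU']
    simp only [List.map, map_add, map_mul, map_neg, h1, ← h2]

theorem good_of_mem [Finite K] {e : ℕ} (σ : K →+* K) (h1 : ∀ x, σ (x ^ e) = x)
    (h2 : ∀ x, σ x = (x ^ e) ^ 3) {g : GL chevG2.Idx K} (hg : g ∈ twistedG2 K e) :
    Good (g.1.submatrix eps eps) ∧
      bB (g.1.submatrix eps eps) = (bA (g.1.submatrix eps eps)).map σ := by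
  rw [twistedG2, ChevalleyDatum.genSubgroup, ← Subgroup.mem_toSubmonoid,
    Subgroup.closure_toSubmonoid_of_finite] at hg
  induction hg using Submonoid.closure_induction with
  | mem g hg =>
    obtain ⟨w, hw, hg⟩ := hg
    obtain ⟨h3, h4⟩ := twist_gen σ h1 h2 hw
    rw [hg, wordMat_eq h3]
    exact ⟨good_wd h3, h4⟩
  | one => simp [Good.one, bA_one, bB_one]
  | mul a b _ _ ha hb =>
    rw [Units.val_mul, ← submatrix_mul_equiv _ _ _ eps]
    refine ⟨ha.1.mul hb.1, ?_⟩
    rw [bB_mul ha.1.z, bA_mul hb.1.z, ha.2, hb.2, Matrix.map_mul]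

end

end Cfsg.Agent.H6.Ree
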