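import Cfsg.Agent.H6.Ree.Good

/-! The exterior square of the 7-dimensional module of `G₂` in characteristic 3. -/

set_option autoImplicit false

namespace Cfsg.Agent.H6.Ree

open Matrix Polynomial

theorem charpoly_of_conj {n K : Type*} [Fintype n] [DecidableEq n] [CommRing K]
    {A B Q Q' : Matrix n n K} (hQ : Q * Q' = 1) (h : A * Q = Q * B) : A.charpoly = B.charpoly := by
  have h1 : A = Q * (B * Q') := by rw [← Matrix.mul_assoc, ← h, Matrix.mul_assoc, hQ, Matrix.mul_one]
  rw [h1, charpoly_mul_comm, Matrix.mul_assoc, mul_eq_one_comm.1 hQ, Matrix.mul_one]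

theorem charpoly_block {K : Type*} [CommRing K] {a b n : ℕ} (e : Fin a ⊕ Fin b ≃ Fin n)
    (M : Matrix (Fin n) (Fin n) K) {A : Matrix (Fin a) (Fin a) K} {B : Matrix (Fin b) (Fin b) K}
    (h : ∀ i j, M (e (.inr i)) (e (.inl j)) = 0) (hA : ∀ i j, M (e (.inl i)) (e (.inl j)) = A i j)
    (hB : ∀ i j, M (e (.inr i)) (e (.inr j)) = B i j) :
    M.charpoly = A.charpoly * B.charpoly := by
  rw [← charpoly_reindex e.symm M, ← charpoly_fromBlocks_zero₂₁ _
    (M.submatrix (fun i => e (.inl i)) fun j => e (.inr j))]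
  congr 1
  ext (i | i) (j | j) <;> simp [h, hA, hB]

/-- first member of a pair -/
def q1 (c : ℕ) : ℕ := List.getD [0, 0, 0, 0, 0, 0, 1, 1, 1, 1, 1, 2, 2, 2, 2, 3, 3, 3, 4, 4, 5] c 0
/-- second member of a pair -/
def q2 (c : ℕ) : ℕ := List.getD [1, 2, 3, 4, 5, 6, 2, 3, 4, 5, 6, 3, 4, 5, 6, 4, 5, 6, 5, 6, 6] c 0
/-- first member of a pair -/
def p1 (c : Fin 21) : Fin 7 := ⟨q1 c, by revert c; decide⟩
/-- second member of a pair -/
def p2 (c : Fin 21) : Fin 7 := ⟨q2 c, by revert c; decide⟩

theorem p1_lt (c : Fin 21) : p1 c < p2 c := by revert c; decide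
theorem p_inj (c c' : Fin 21) (h1 : p1 c = p1 c') (h2 : p2 c = p2 c') : c = c' := by
  revert c c'; decide
theorem p_surj (i j : Fin 7) (h : i < j) : ∃ c, p1 c = i ∧ p2 c = j := by revert i j; decide

section
variable {K : Type*} [CommRing K]

/-- the standard alternating matrices -/
def yb (K : Type*) [CommRing K] (c : Fin 21) : M7 K :=
  Matrix.single (p1 c) (p2 c) 1 - Matrix.single (p2 c) (p1 c) 1

/-- coordinates of an alternating matrix -/
def co : M7 K →ₗ[K] (Fin 21 → K) where
  toFun Y c := Y (p1 c) (p2 c)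
  map_add' _ _ := rfl
  map_smul' _ _ := rfl

/-- the alternating matrix with given coordinates -/
def asm : (Fin 21 → K) →ₗ[K] M7 K where
  toFun v := ∑ c, v c • yb K c
  map_add' v w := by simp [add_smul, Finset.sum_add_distrib]
  map_smul' a v := by simp [Finset.smul_sum, smul_smul]

theorem asm_apply (v : Fin 21 → K) (c : Fin 21) : asm v (p1 c) (p2 c) = v c := by
  change (∑ c, v c • yb K c) _ _ = _
  rw [Matrix.sum_apply, Finset.sum_eq_single c]
  · simp [yb, (p1_lt c).ne']
  · intro c' _ h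
    have h1 : ¬ (p1 c' = p1 c ∧ p2 c' = p2 c) := fun e => h (p_inj _ _ e.1 e.2)
    have h2 : ¬ (p2 c' = p1 c ∧ p1 c' = p2 c) := fun e =>
      (p1_lt c').not_gt (e.1 ▸ e.2 ▸ p1_lt c)
    simp [yb, single_apply, h1, h2]
  · simp

theorem asm_alt (v : Fin 21 → K) : (asm v)ᵀ = -asm v := by
  change (∑ c, v c • yb K c)ᵀ = -∑ c, v c • yb K c
  simp [transpose_sum, yb, ← Finset.sum_neg_distrib, ← smul_neg]

theorem eq_of_alt [CharP K 3] {Y Z : M7 K} (hY : Yᵀ = -Y) (hZ : Zᵀ = -Z) (h : co Y = co Z) : Y = Z := by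
  have h3 : (3 : K) = 0 := CharP.cast_eq_zero K 3
  have key : ∀ i j, i < j → Y i j = Z i j := fun i j hij => by
    obtain ⟨c, rfl, rfl⟩ := p_surj i j hij
    exact congrFun h c
  ext i j
  have a := congrFun (congrFun hY j) i
  have b := congrFun (congrFun hZ j) i
  simp only [transpose_apply, Matrix.neg_apply] at a b
  rcases lt_trichotomy i j with hij | rfl | hij
  · exact key i j hij
  · linear_combination (-1 : K) * a + b + (Y i i - Z i i) * h3
  · rw [a, b, key j i hij]

theorem co_asm (v : Fin 21 → K) : co (asm v) = v := funext (asm_apply v)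

theorem asm_co [CharP K 3] {Y : M7 K} (hY : Yᵀ = -Y) : asm (co Y) = Y :=
  eq_of_alt (asm_alt _) hY (co_asm _)

/-- the exterior square -/
def lam (A : M7 K) : Matrix (Fin 21) (Fin 21) K :=
  LinearMap.toMatrix' (co ∘ₗ (LinearMap.mulLeft K A ∘ₗ LinearMap.mulRight K Aᵀ) ∘ₗ asm)

theorem lam_mulVec (A : M7 K) (v : Fin 21 → K) : lam A *ᵥ v = co (A * (asm v * Aᵀ)) := by
  rw [lam, LinearMap.toMatrix'_mulVec]; rfl

theorem alt_conj (A : M7 K) {Y : M7 K} (hY : Yᵀ = -Y) : (A * (Y * Aᵀ))ᵀ = -(A * (Y * Aᵀ)) := by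
  simp [hY, Matrix.mul_assoc]

theorem lam_mul [CharP K 3] (A B : M7 K) : lam (A * B) = lam A * lam B := by
  refine ext_of_mulVec_single fun c => ?_
  rw [← mulVec_mulVec, lam_mulVec, lam_mulVec, lam_mulVec, asm_co (alt_conj B (asm_alt _))]
  simp only [transpose_mul, Matrix.mul_assoc]

theorem lam_diagonal (d : Fin 7 → K) :
    lam (diagonal d) = diagonal fun c => d (p1 c) * d (p2 c) := by
  refine ext_of_mulVec_single fun c => funext fun c' => ?_
  rw [lam_mulVec, mulVec_diagonal]
  change (diagonal d * (asm _ * (diagonal d)ᵀ) : M7 K) (p1 c') (p2 c') = _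
  rw [diagonal_transpose, diagonal_mul, mul_diagonal, asm_apply]; ring

theorem lam_one : lam (1 : M7 K) = 1 := by
  rw [← diagonal_one, lam_diagonal]; simp

/-- the bracket -/
def br (Y : M7 K) (k : Fin 7) : K := ∑ i, ∑ j, Y i j * DD K (lo i) k j

theorem Good.br_conj {M : M14 K} (h : Good M) (Y : M7 K) :
    br (bA M * (Y * (bA M)ᵀ)) = bA M *ᵥ br Y := by
  have key : ∀ a, (∑ i, bA M i a • DD K (lo i)) * bA M = bA M * DD K (lo a) := fun a => by
    rw [h.der, sum14]; simp [h.z, bA]
  funext k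
  calc _ = ∑ a, ∑ b, Y a b * ((∑ i, bA M i a • DD K (lo i)) * bA M) k b := by
        simp only [br, mul_apply, transpose_apply, Matrix.sum_apply, Matrix.smul_apply,
          smul_eq_mul, Finset.sum_mul, Finset.mul_sum]
        rw [Finset.sum_comm]
        conv_lhs => enter [2, j]; rw [Finset.sum_comm]; enter [2, a]; rw [Finset.sum_comm]
        rw [Finset.sum_comm]
        refine Finset.sum_congr rfl fun a _ => ?_
        rw [Finset.sum_comm]
        refine Finset.sum_congr rfl fun b _ => Finset.sum_congr rfl fun j _ =>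
          Finset.sum_congr rfl fun i _ => by ring
    _ = _ := by
        simp only [key]
        simp only [mul_apply, mulVec, dotProduct, br, Finset.mul_sum]
        conv_rhs => rw [Finset.sum_comm]; enter [2, a]; rw [Finset.sum_comm]
        refine Finset.sum_congr rfl fun a _ => Finset.sum_congr rfl fun b _ =>
          Finset.sum_congr rfl fun l _ => by ring

/-- an adapted basis of the exterior square -/
def sN : ℕ := 784392241362106667859401302522911799591556266108355271525729279765907740089694441367489104148203531490518531627905762975552319643572575613911212200952883027416618322830652906289919220540413121613342806436453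
/-- the inverse matrix -/
def siN : ℕ := 127071543098749107462029985422789287991766102057565283742003901414783019236242778285388113734613399106811435242189377632314463402369542335900580937028584128697006630198366783574681838418492610191888070745845938

theorem lam_chk : (eqM 21 21 (mulP 21 21 21 (cM 21 siN) (cM 21 sN)) oneP &&
    eqM 7 7 (mulP 7 7 7 (cM 7 109569290223188478600) (cM 7 109569290223188478600)) oneP &&
    (allB 14 fun j => (fun W : PM => eqM 7 7 (trP W) (fun a b => ps (-1) (W a b)) &&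
      allB 21 fun c => eq3 (cM 21 sN c j) (W (q1 c) (q2 c)))
        (mulP 7 7 7 (cM 7 (dt j)) (cM 7 109569290223188478600))) &&
    allB 7 fun k => allB 21 fun c => eq3 (cM 21 siN (14 + k) c)
      (pa (cM 7 (dt (q1 c)) k (q2 c)) (ps (-1) (cM 7 (dt (q2 c)) k (q1 c))))) = true := by
  decide +kernel

theorem lam_facts [CharP K 3] : cK K 21 21 siN * cK K 21 21 sN = 1 ∧ JJ K * JJ K = 1 ∧
    (∀ j : Fin 14, (DD K j * JJ K)ᵀ = -(DD K j * JJ K) ∧
      ∀ c, cK K 21 21 sN c (Fin.castAdd 7 j) = co (DD K j * JJ K) c) ∧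
    ∀ (k : Fin 7) c, cK K 21 21 siN (Fin.natAdd 14 k) c =
      DD K (lo (p1 c)) k (p2 c) - DD K (lo (p2 c)) k (p1 c) := by
  have h := lam_chk
  simp only [Bool.and_eq_true] at h
  obtain ⟨⟨⟨h1, h2⟩, h3⟩, h4⟩ := h
  let c0 : Lean.RArray K := .leaf 0
  refine ⟨?_, ?_, fun j => ?_, fun k c => ?_⟩
  · have := evM_eqM c0 h1
    rwa [evM_mulP, evM_oneP] at this
  · have := evM_eqM c0 h2
    rwa [evM_mulP, evM_oneP] at this
  · have h5 := allB_sound h3 j.2
    simp only [Bool.and_eq_true] at h5
    have h6 := evM_mulP c0 7 7 7 (cM 7 (dt j)) (cM 7 109569290223188478600)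
    refine ⟨?_, fun c => ?_⟩
    · have := evM_eqM c0 h5.1
      rw [evM_trP, h6] at this
      refine this.trans ?_
      refine Eq.trans ?_ (congrArg (fun x => -x) h6)
      ext a b; simp [evM, ev_ps]
    · exact (ev_eq3 c0 (allB_sound h5.2 c.2)).trans (congrFun (congrFun h6 (p1 c)) (p2 c))
  · have := ev_eq3 c0 (allB_sound (allB_sound h4 k.2) c.2)
    rw [ev_pa, ev_ps] at this
    refine this.trans ?_
    rw [sub_eq_add_neg, Int.cast_neg, Int.cast_one, neg_one_mul]; rfl

theorem Good.orth' [CharP K 3] {M : M14 K} (h : Good M) : bA M * JJ K * (bA M)ᵀ = JJ K := by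
  have hJ := (lam_facts (K := K)).2.1
  have h1 : (bA M)ᵀ * (JJ K * bA M * JJ K) = 1 := by
    rw [← Matrix.mul_assoc, ← Matrix.mul_assoc, h.orth, hJ]
  have h2 := mul_eq_one_comm.1 h1
  calc _ = JJ K * (JJ K * bA M * JJ K * (bA M)ᵀ) := by
        simp only [← Matrix.mul_assoc, hJ, Matrix.one_mul]
    _ = _ := by rw [h2, Matrix.mul_one]

theorem br_asm [CharP K 3] (v : Fin 21 → K) :
    br (asm v) = (cK K 21 21 siN).submatrix (Fin.natAdd 14) id *ᵥ v := by
  funext k
  change ∑ i, ∑ j, (∑ c, v c • yb K c) i j * _ = _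
  simp only [Matrix.sum_apply, Finset.sum_mul, mulVec, dotProduct, submatrix_apply, id,
    (lam_facts (K := K)).2.2.2]
  conv_lhs => enter [2, i]; rw [Finset.sum_comm]
  rw [Finset.sum_comm]
  refine Finset.sum_congr rfl fun c _ => ?_
  simp [yb, single_apply, sub_mul, mul_sub, ite_and, mul_comm]

theorem Good.charpoly_lam [CharP K 3] {M : M14 K} (h : Good M) :
    (lam (bA M)).charpoly = (bA M).charpoly * (bB M).charpoly * (bA M).charpoly := by
  obtain ⟨f1, -, f3, -⟩ := lam_facts (K := K)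
  set S := cK K 21 21 sN
  set Si := cK K 21 21 siN
  have f1' := mul_eq_one_comm.1 f1
  set T := Si * lam (bA M) * S with hT
  have h1 : lam (bA M) * S = S * T := by simp only [hT, ← Matrix.mul_assoc, f1', Matrix.one_mul]
  have hl : ∀ (j : Fin 14) c, T c (Fin.castAdd 7 j) = ∑ i, M i j * (1 : Matrix _ _ K) c (Fin.castAdd 7 i) := by
    intro j c
    have e1 : lam (bA M) *ᵥ (fun c => S c (Fin.castAdd 7 j)) = ∑ i, M i j • fun c => S c (Fin.castAdd 7 i) := by
      simp only [fun j => funext (f3 j).2]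
      rw [lam_mulVec, asm_co (f3 j).1, ← Matrix.mul_assoc, ← Matrix.mul_assoc, h.der,
        Matrix.mul_assoc, Matrix.mul_assoc, ← Matrix.mul_assoc (bA M), h.orth', Finset.sum_mul,
        map_sum]
      simp
    calc _ = (Si *ᵥ (lam (bA M) *ᵥ fun c => S c (Fin.castAdd 7 j))) c := by
          rw [mulVec_mulVec]; rfl
      _ = _ := by
          rw [e1, mulVec_sum, Finset.sum_apply, ← f1]
          simp [mulVec_smul, mul_apply, mulVec, dotProduct, Finset.mul_sum, mul_left_comm]
  let low (N : Matrix (Fin 21) (Fin 21) K) : Matrix (Fin 7) (Fin 21) K :=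
    N.submatrix (Fin.natAdd 14) id
  have hr : low T = bA M * low 1 := by
    have e1 : low Si * lam (bA M) = bA M * low Si := by
      refine ext_of_mulVec_single fun c => ?_
      rw [← mulVec_mulVec, ← mulVec_mulVec, ← br_asm, ← br_asm, lam_mulVec,
        asm_co (alt_conj _ (asm_alt _)), h.br_conj]
    calc _ = low Si * lam (bA M) * S := rfl
      _ = bA M * (low Si * S) := by rw [e1, Matrix.mul_assoc]
      _ = _ := by rw [← f1]; rfl
  rw [charpoly_of_conj f1' h1, ← charpoly_block (n := 14) (A := bA M) (B := bB M) (finSumFinEquiv (m := 7) (n := 7)) M h.z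
    (fun _ _ => rfl) (fun _ _ => rfl)]
  refine charpoly_block (n := 21) (finSumFinEquiv (m := 14) (n := 7)) T (fun i j => ?_) (fun i j => ?_)
    fun i j => ?_
  · change T (Fin.natAdd 14 i) (Fin.castAdd 7 j) = 0
    refine (hl _ _).trans (Finset.sum_eq_zero fun k _ => ?_)
    rw [one_apply_ne, mul_zero]; intro e; have := k.2; simp [Fin.ext_iff] at e; omega
  · change T (Fin.castAdd 7 i) (Fin.castAdd 7 j) = _
    refine (hl _ _).trans ?_
    simp [one_apply, Fin.ext_iff]
    simp [← Fin.ext_iff]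
  · change T (Fin.natAdd 14 i) (Fin.natAdd 14 j) = _
    have := congrFun (congrFun hr i) (Fin.natAdd 14 j)
    simp only [low, submatrix_apply, id, mul_apply, one_apply, Fin.ext_iff, Fin.val_natAdd,
      Nat.add_right_inj] at this
    simpa [← Fin.ext_iff] using this

theorem charpoly_lam_of_diag [CharP K 3] {A Q Q' : M7 K} {d : Fin 7 → K} (hQ : Q * Q' = 1)
    (h : A * Q = Q * diagonal d) :
    (lam A).charpoly = ∏ c, (X - C (d (p1 c) * d (p2 c))) := by
  rw [charpoly_of_conj (B := lam (diagonal d)) (Q := lam Q) (Q' := lam Q')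
    (by rw [← lam_mul, hQ, lam_one]) (by rw [← lam_mul, h, lam_mul]), lam_diagonal,
    charpoly_diagonal]

end

end Cfsg.Agent.H6.Ree
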