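import Mathlib

/-! Matrices of integer polynomials, evaluated in a commutative ring of characteristic 3. -/

set_option autoImplicit false

namespace Cfsg.Agent.H6.Ree

/-- integer polynomials in several variables -/
abbrev P : Type := Lean.Grind.CommRing.Poly

variable {K : Type*} [CommRing K]

/-- evaluation -/
noncomputable def ev (c : Lean.RArray K) (p : P) : K := Lean.Grind.CommRing.Poly.denote c p

/-- constant -/
def pc (k : ℤ) : P := .num k
/-- variable -/
def pv (i : ℕ) : P := Lean.Grind.CommRing.Poly.ofVar i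
/-- sum -/
def pa (p q : P) : P := p.combine q
/-- product -/
def pm (p q : P) : P := p.mul q
/-- scalar multiple -/
def ps (k : ℤ) (p : P) : P := p.mulConst k

theorem ev_pc (c : Lean.RArray K) (k : ℤ) : ev c (pc k) = (k : K) := rfl
theorem ev_pv (c : Lean.RArray K) (i : ℕ) : ev c (pv i) = c.get i :=
  Lean.Grind.CommRing.Poly.denote_ofVar c i
theorem ev_pa (c : Lean.RArray K) (p q : P) : ev c (pa p q) = ev c p + ev c q :=
  Lean.Grind.CommRing.Poly.denote_combine c p q
theorem ev_pm (c : Lean.RArray K) (p q : P) : ev c (pm p q) = ev c p * ev c q :=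
  Lean.Grind.CommRing.Poly.denote_mul c p q
theorem ev_ps (c : Lean.RArray K) (k : ℤ) (p : P) : ev c (ps k p) = (k : K) * ev c p :=
  Lean.Grind.CommRing.Poly.denote_mulConst c k p

/-- all coefficients are divisible by 3 -/
def z3 : P → Bool
  | .num k => Nat.beq (k.natAbs % 3) 0
  | .add k _ p => Nat.beq (k.natAbs % 3) 0 && z3 p

theorem cast_eq_zero_of [CharP K 3] {k : ℤ} (h : Nat.beq (k.natAbs % 3) 0 = true) : (k : K) = 0 := by
  rw [CharP.intCast_eq_zero_iff K 3]
  have := Nat.eq_of_beq_eq_true h
  omega

theorem ev_z3 [CharP K 3] (c : Lean.RArray K) : ∀ {p : P}, z3 p = true → ev c p = 0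
  | .num _, h => cast_eq_zero_of h
  | .add k m p, h => by
    simp only [z3, Bool.and_eq_true] at h
    have h1 := ev_z3 c h.2
    change k • (Lean.Grind.CommRing.Mon.denote c m) + ev c p = 0
    rw [h1, add_zero, zsmul_eq_mul, cast_eq_zero_of h.1, zero_mul]

/-- equality modulo 3 -/
def eq3 (p q : P) : Bool := z3 (pa p (ps (-1) q))

theorem ev_eq3 [CharP K 3] (c : Lean.RArray K) {p q : P} (h : eq3 p q = true) : ev c p = ev c q := by
  have := ev_z3 c h
  rw [ev_pa, ev_ps] at this
  linear_combination this

/-- finite sums -/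
def psum : ℕ → (ℕ → P) → P
  | 0, _ => pc 0
  | n + 1, f => pa (psum n f) (f n)

theorem ev_psum (c : Lean.RArray K) (n : ℕ) (f : ℕ → P) :
    ev c (psum n f) = ∑ i : Fin n, ev c (f i) := by
  induction n with
  | zero => simp [psum, ev_pc]
  | succ n ih => rw [psum, ev_pa, ih, Fin.sum_univ_castSucc]; rfl

/-- matrices of polynomials -/
abbrev PM : Type := ℕ → ℕ → P

/-- evaluation of a matrix -/
noncomputable def evM (c : Lean.RArray K) (n m : ℕ) (M : PM) : Matrix (Fin n) (Fin m) K :=
  Matrix.of fun i j => ev c (M i j)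

/-- tabulation -/
def memo (n m : ℕ) (M : PM) : PM :=
  (fun T : List (List P) => fun i j => (T.getD i []).getD j (pc 0))
    ((List.range n).map fun i => (List.range m).map fun j => M i j)

theorem evM_memo (c : Lean.RArray K) (n m : ℕ) (M : PM) : evM c n m (memo n m M) = evM c n m M := by
  ext i j
  simp [evM, memo, List.getD_eq_getElem?_getD]

/-- product -/
def mulP (n k m : ℕ) (M N : PM) : PM := memo n m fun i j => psum k fun l => pm (M i l) (N l j)

theorem evM_mulP (c : Lean.RArray K) (n k m : ℕ) (M N : PM) :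
    evM c n m (mulP n k m M N) = evM c n k M * evM c k m N := by
  rw [mulP, evM_memo]
  ext i j
  simp [evM, ev_psum, ev_pm, Matrix.mul_apply]

/-- transpose -/
def trP (M : PM) : PM := fun i j => M j i

theorem evM_trP (c : Lean.RArray K) (n m : ℕ) (M : PM) :
    evM c n m (trP M) = (evM c m n M).transpose := rfl

/-- bounded quantifier -/
def allB : ℕ → (ℕ → Bool) → Bool
  | 0, _ => true
  | n + 1, f => f n && allB n f

theorem allB_sound {n : ℕ} {f : ℕ → Bool} (h : allB n f = true) {i : ℕ} (hi : i < n) : f i = true := by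
  induction n with
  | zero => omega
  | succ n ih =>
    simp only [allB, Bool.and_eq_true] at h
    rcases Nat.lt_succ_iff_lt_or_eq.1 hi with h' | rfl
    · exact ih h.2 h'
    · exact h.1

/-- equality of matrices modulo 3 -/
def eqM (n m : ℕ) (M N : PM) : Bool := allB n fun i => allB m fun j => eq3 (M i j) (N i j)

theorem evM_eqM [CharP K 3] (c : Lean.RArray K) {n m : ℕ} {M N : PM} (h : eqM n m M N = true) :
    evM c n m M = evM c n m N := by
  ext i j
  exact ev_eq3 c (allB_sound (allB_sound h i.2) j.2)

/-- digit of a number in base 3 -/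
def dig (tb k : ℕ) : ℤ := Int.ofNat ((tb / 3 ^ k) % 3)

/-- constant matrix with `m` columns coded in base 3 -/
def cM (m tb : ℕ) : PM := fun i j => pc (dig tb (m * i + j))

/-- constant matrix with `m` columns coded in base 3 -/
def cK (K : Type*) [CommRing K] (n m tb : ℕ) : Matrix (Fin n) (Fin m) K :=
  Matrix.of fun i j => (dig tb (m * i + j) : K)

theorem evM_cM (c : Lean.RArray K) (n m tb : ℕ) : evM c n m (cM m tb) = cK K n m tb := rfl

theorem cK_map {L : Type*} [CommRing L] (f : K →+* L) (n m tb : ℕ) :
    (cK K n m tb).map f = cK L n m tb := by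
  ext i j; simp [cK]

/-- identity matrix -/
def oneP : PM := fun i j => pc (if i = j then 1 else 0)

theorem evM_oneP (c : Lean.RArray K) (n : ℕ) : evM c n n oneP = 1 := by
  ext i j
  simp only [evM, oneP, ev_pc, Matrix.of_apply, Matrix.one_apply, Fin.ext_iff]
  split_ifs <;> simp

end Cfsg.Agent.H6.Ree
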