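import Cfsg.Agent.H6.Ree.Eig

/-! Element orders and centralizers in groups with a representation like the 7-dimensional
representation of a small Ree group. -/

set_option autoImplicit false

namespace Cfsg.Agent.H6.Ree

open Matrix Polynomial Module

variable {L : Type*} [Field L]

theorem nil_chain {V : Type*} [AddCommGroup V] [Module L V] [FiniteDimensional L V] {N : End L V}
    (hN : IsNilpotent N) {W : Submodule L V} (hW : W.map N ≤ W) (k : ℕ) :
    finrank L (W.map (N ^ k)) + k ≤ finrank L W ∨ W.map (N ^ k) = ⊥ := by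
  have hs : ∀ j, W.map (N ^ (j + 1)) = (W.map (N ^ j)).map N := fun j => by
    rw [pow_succ', End.mul_eq_comp, Submodule.map_comp]
  induction k with
  | zero => left; rw [pow_zero, End.one_eq_id, Submodule.map_id]; rfl
  | succ k ih =>
    rcases ih with ih | ih
    · have hle : W.map (N ^ (k + 1)) ≤ W.map (N ^ k) := by
        rw [pow_succ, End.mul_eq_comp, Submodule.map_comp]; exact Submodule.map_mono hW
      rcases hle.lt_or_eq with h | h
      · have := Submodule.finrank_lt_finrank_of_lt h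
        left; omega
      · right
        have key : ∀ j, W.map (N ^ (k + j)) = W.map (N ^ k) := fun j => by
          induction j with
          | zero => rfl
          | succ j ihj => rw [← add_assoc, hs, ihj, ← hs, h]
        obtain ⟨n, hn⟩ := hN
        rw [h, ← key n, pow_add, hn, mul_zero, Submodule.map_zero]
    · right; rw [hs, ih, Submodule.map_bot]

theorem nil_kill {V : Type*} [AddCommGroup V] [Module L V] [FiniteDimensional L V] {N : End L V}
    (hN : IsNilpotent N) {W : Submodule L V} (hW : W.map N ≤ W) {k : ℕ} (hk : finrank L W ≤ k)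
    {v : V} (hv : v ∈ W) : (N ^ k) v = 0 := by
  have : W.map (N ^ k) = ⊥ := (nil_chain hN hW k).elim
    (fun h => Submodule.finrank_eq_zero.1 (by omega)) id
  exact (Submodule.mem_bot L).1 (this ▸ Submodule.mem_map_of_mem hv)

/-- eigenspace of a matrix -/
def Eg (A : M7 L) (μ : L) : Submodule L (Fin 7 → L) := End.eigenspace (toLin' A) μ

theorem mem_Eg {A : M7 L} {μ : L} {v : Fin 7 → L} : v ∈ Eg A μ ↔ A *ᵥ v = μ • v :=
  End.mem_eigenspace_iff

theorem Eg_map {A N : M7 L} (h : Commute A N) (μ : L) : (Eg A μ).map (toLin' N) ≤ Eg A μ := by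
  rintro _ ⟨v, hv, rfl⟩
  rw [mem_Eg, toLin'_apply, mulVec_mulVec, h.eq, ← mulVec_mulVec, mem_Eg.1 hv, mulVec_smul]

theorem Diag.finrank_le {A : M7 L} {d : Fin 7 → L} (h : Diag A d) (μ : L)
    [DecidablePred fun i => d i = μ] : finrank L (Eg A μ) ≤ Fintype.card {i // d i = μ} := by
  obtain ⟨Q, Q', h1, h2⟩ := h
  have h3 : Q' * A = diagonal d * Q' := by
    rw [← Matrix.mul_one (Q' * A), ← h1, ← Matrix.mul_assoc, Matrix.mul_assoc Q', h2,
      ← Matrix.mul_assoc, mul_eq_one_comm.1 h1, Matrix.one_mul]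
  let φ : Eg A μ →ₗ[L] ({i // d i = μ} → L) :=
    LinearMap.funLeft L L Subtype.val ∘ₗ toLin' Q' ∘ₗ (Eg A μ).subtype
  have hφ : Function.Injective φ := by
    refine (injective_iff_map_eq_zero _).2 fun v hv => Subtype.ext ?_
    have h4 : Q' *ᵥ v.1 = 0 := funext fun i => by
      by_cases hi : d i = μ
      · exact congrFun hv ⟨i, hi⟩
      · have := congrFun (congrArg (Q' *ᵥ ·) (mem_Eg.1 v.2)) i
        simp only [mulVec_mulVec, h3] at this
        rw [← mulVec_mulVec, mulVec_diagonal, mulVec_smul] at this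
        exact (mul_eq_mul_right_iff.1 this).resolve_left hi
    rw [← one_mulVec v.1, ← h1, ← mulVec_mulVec, h4, mulVec_zero]; rfl
  simpa using LinearMap.finrank_le_finrank_of_injective hφ

theorem Diag.exists_eq {A : M7 L} {d : Fin 7 → L} (h : Diag A d) {μ : L} {v : Fin 7 → L}
    (hv : A *ᵥ v = μ • v) (h0 : v ≠ 0) : ∃ i, d i = μ := by
  classical
  by_contra hn
  have := h.finrank_le μ
  rw [Fintype.card_eq_zero_iff.2 ⟨fun i => hn ⟨i.1, i.2⟩⟩, Nat.le_zero,
    Submodule.finrank_eq_zero] at this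
  exact h0 ((Submodule.mem_bot L).1 (this ▸ mem_Eg.2 hv))

theorem Diag.inj {A : M7 L} {d d' : Fin 7 → L} (h : Diag A d) (h' : Diag A d')
    (hd : Function.Injective d) : Function.Injective d' := by
  obtain ⟨π, rfl⟩ := exists_perm_of_map_eq (h.roots.symm.trans h'.roots)
  exact hd.comp π.injective

theorem Diag.trace {A : M7 L} {d : Fin 7 → L} (h : Diag A d) : A.trace = ∑ i, d i := by
  obtain ⟨Q, Q', h1, h2⟩ := h
  rw [← Matrix.mul_one A, ← h1, ← Matrix.mul_assoc, h2, trace_mul_cycle, mul_eq_one_comm.1 h1,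
    Matrix.one_mul, trace_diagonal]

/-- the invariant form -/
def bf (v w : Fin 7 → L) : L := v ⬝ᵥ (JJ L *ᵥ w)

theorem JJ_symm (K : Type*) [CommRing K] : (JJ K)ᵀ = JJ K := by
  have : ∀ i j : Fin 7, dig 109569290223188478600 (7 * j + i) =
    dig 109569290223188478600 (7 * i + j) := by decide +kernel
  ext i j
  simp only [JJ, cK, transpose_apply, of_apply, this]

theorem bf_comm (v w : Fin 7 → L) : bf v w = bf w v := by
  rw [bf, bf, dotProduct_mulVec, ← mulVec_transpose, JJ_symm, dotProduct_comm]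

theorem bf_inv {A : M7 L} (h : Aᵀ * JJ L * A = JJ L) (v w : Fin 7 → L) :
    bf (A *ᵥ v) (A *ᵥ w) = bf v w := by
  rw [bf, bf, mulVec_mulVec, dotProduct_mulVec, vecMul_mulVec, ← Matrix.mul_assoc, h,
    dotProduct_mulVec]

theorem bf_nondeg [CharP L 3] {v : Fin 7 → L} (h : ∀ w, bf v w = 0) : v = 0 := by
  refine dotProduct_eq_zero _ fun w => ?_
  have := h (JJ L *ᵥ w)
  rwa [bf, mulVec_mulVec, (lam_facts (K := L)).2.1, one_mulVec] at this

theorem bf_add_left (u v w : Fin 7 → L) : bf (u + v) w = bf u w + bf v w := add_dotProduct ..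
theorem bf_add_right (u v w : Fin 7 → L) : bf u (v + w) = bf u v + bf u w := by
  simp [bf, mulVec_add]
theorem bf_smul_right (u v : Fin 7 → L) (c : L) : bf u (c • v) = c * bf u v := by
  simp [bf, mulVec_smul]
theorem bf_zero_right (u : Fin 7 → L) : bf u 0 = 0 := by simp [bf]

theorem decomp [CharP L 3] {S : M7 L} (hS : S * S = 1) (v : Fin 7 → L) :
    ∃ a ∈ Eg S 1, ∃ b ∈ Eg S (-1), v = a + b := by
  have h3 : (3 : L) = 0 := CharP.cast_eq_zero L 3
  refine ⟨-(v + S *ᵥ v), ?_, -(v - S *ᵥ v), ?_, ?_⟩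
  · simp [mem_Eg, mulVec_neg, mulVec_add, hS, add_comm]
  · simp [mem_Eg, mulVec_sub, hS]
  · ext i; simp; linear_combination v i * h3

theorem cube_eq_one [CharP L 3] {S U : M7 L} (hS : S * S = 1) (hS' : Sᵀ * JJ L * S = JJ L)
    (hU : (U ^ 3)ᵀ * JJ L * U ^ 3 = JJ L) (hc : Commute S U) (hn : IsNilpotent (U - 1))
    (h1 : finrank L (Eg S 1) ≤ 3) (h2 : finrank L (Eg S (-1)) ≤ 4) : U ^ 3 = 1 := by
  have h3 : (3 : L) = 0 := CharP.cast_eq_zero L 3
  have h2' : (2 : L) ≠ 0 := fun e => one_ne_zero (by linear_combination h3 - e : (1 : L) = 0)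
  set N := toLin' (U - 1) with hN
  have hn' : IsNilpotent N := hn.map toLinAlgEquiv'
  have hcN : Commute S (U - 1) := hc.sub_right (Commute.one_right S)
  have hF : ∀ v, U ^ 3 *ᵥ v = v + (N ^ 3) v := fun v => by
    rw [hN, ← toLin'_pow, toLin'_apply, sub_pow_char_of_commute 3 (Commute.one_right U)]
    simp [sub_mulVec]
  have iso : ∀ v w, bf ((N ^ 3) v) w + bf v ((N ^ 3) w) + bf ((N ^ 3) v) ((N ^ 3) w) = 0 := by
    intro v w
    have := bf_inv hU v w
    rw [hF, hF, bf_add_left, bf_add_right, bf_add_right] at this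
    linear_combination this
  have iso0 : ∀ v w, (N ^ 3) w = 0 → bf ((N ^ 3) v) w = 0 := fun v w h => by
    simpa [h, bf_zero_right] using iso v w
  have k1 : ∀ a ∈ Eg S 1, (N ^ 3) a = 0 := fun a ha => nil_kill hn' (Eg_map hcN 1) h1 ha
  have k2 : ∀ b ∈ Eg S (-1), (N ^ 3) b = 0 := by
    intro b hb
    by_contra hne
    have hr : finrank L ((Eg S (-1)).map (N ^ 3)) ≤ 1 := by
      rcases nil_chain hn' (Eg_map hcN (-1)) 3 with h | h
      · omega
      · rw [h]; simp
    obtain ⟨v0, hv0⟩ := finrank_le_one_iff.1 hr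
    have e1 : (N ^ 3) ((N ^ 3) b) = 0 := by
      rw [← End.mul_apply, ← pow_add, show 3 + 3 = 2 + 4 from rfl, pow_add, End.mul_apply,
        nil_kill hn' (Eg_map hcN (-1)) h2 hb, map_zero]
    have e2 : bf ((N ^ 3) b) b = 0 := by
      have := iso b b
      rw [iso0 b _ e1, bf_comm b] at this
      exact (mul_eq_zero.1 (by linear_combination this : (2 : L) * _ = 0)).resolve_left h2'
    refine hne (bf_nondeg fun w => ?_)
    obtain ⟨a, ha, c, hc', rfl⟩ := decomp hS w
    rw [bf_add_right, iso0 b a (k1 a ha), zero_add]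
    obtain ⟨α, hα⟩ := hv0 ⟨_, Submodule.mem_map_of_mem hb⟩
    obtain ⟨β, hβ⟩ := hv0 ⟨_, Submodule.mem_map_of_mem hc'⟩
    have hα' : α • v0.1 = (N ^ 3) b := congrArg Subtype.val hα
    have hβ' : β • v0.1 = (N ^ 3) c := congrArg Subtype.val hβ
    have hα0 : α ≠ 0 := by rintro rfl; exact hne (by rw [← hα', zero_smul])
    have := iso0 b (c + (-(β / α)) • b) (by
      rw [map_add, map_smul, ← hα', ← hβ', smul_smul, ← add_smul]; simp [hα0])
    rwa [bf_add_right, bf_smul_right, e2, mul_zero, add_zero] at this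
  refine ext_of_mulVec_single fun i => ?_
  obtain ⟨a, ha, b, hb, e⟩ := decomp hS (Pi.single i 1)
  rw [hF, one_mulVec, e, map_add, k1 a ha, k2 b hb, add_zero, add_zero]

/-- abstract properties of the representation -/
structure RR {G : Type*} [Group G] (k : ℕ) (ρ : G →* M7 L) : Prop where
  inj : Function.Injective ρ
  orth : ∀ g, (ρ g)ᵀ * JJ L * ρ g = JJ L
  eig : ∀ g, ¬ 3 ∣ orderOf g → ∃ x y z : Additive Lˣ, Hex ((3 ^ k : ℕ) : ℤ) x y z ∧
    Diag (ρ g) (val ∘ hexv 0 x y z)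

variable {G : Type*} [Group G] {k : ℕ} {ρ : G →* M7 L} [CharP L 3]

theorem odd_r (k : ℕ) : ∃ s : ℤ, ((3 ^ k : ℕ) : ℤ) = 2 * s + 1 :=
  (Odd.pow (n := k) (by decide : Odd 3)).natCast

theorem Hex.pow_iff {r : ℤ} {x y z : Additive Lˣ} (h : Hex r x y z) (n : ℕ) :
    (∀ i, (val ∘ hexv 0 x y z) i ^ n = 1) ↔ (n : ℤ) • x = 0 ∧ (n : ℤ) • y = 0 := by
  simp only [Function.comp, ← val_nsmul, ← val_zero (L := L), val_inj.eq_iff]
  refine ⟨fun h => ⟨h 1, h 3⟩, fun ⟨hx, hy⟩ i => ?_⟩
  have hz : (n : ℤ) • z = 0 := by linear_combination (norm := module) (n : ℤ) • h.1 - hx - hy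
  fin_cases i <;> simp only [hexv] <;> simp [-natCast_zsmul, hx, hy, hz]

theorem RR.pow_iff (h : RR k ρ) {g : G} {d : Fin 7 → L} (hd : Diag (ρ g) d) (n : ℕ) :
    g ^ n = 1 ↔ ∀ i, d i ^ n = 1 := by
  rw [← hd.pow, ← map_pow, ← h.inj.eq_iff, map_one]

theorem RR.regular (h : RR k ρ) {g : G} (h3 : ¬ 3 ∣ orderOf g) (h2 : g ^ 2 ≠ 1) :
    ∃ d, Diag (ρ g) d ∧ Function.Injective d ∧ d 0 = 1 ∧ ∀ i, d i ≠ -1 := by
  obtain ⟨x, y, z, hx, hd⟩ := h.eig g h3
  obtain ⟨s, hs⟩ := odd_r k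
  have h0 : x + x ≠ 0 := fun e => h2 ((h.pow_iff hd 2).2 ((hx.pow_iff 2).2
    ⟨by rw [← e]; module, by rw [← (hx.of_two hs e).1]; module⟩))
  have hi := hx.regular hs (pow_three_smul k) h0
  refine ⟨_, hd, val_inj.comp hi, rfl, fun i e => ?_⟩
  have h1 : hexv 0 x y z i = -hexv 0 x y z i := val_inj (by
    rw [val_neg]; simp only [Function.comp] at e; rw [e]; simp)
  have h4 : (-1 : L) ≠ 1 := Ring.neg_one_ne_one_of_char_ne_two (by rw [ringChar.eq L 3]; decide)
  have h5 : ∀ j, j ≠ i → hexv 0 x y z i ≠ hexv 0 x y z j := fun j hj e => hj (hi e).symm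
  fin_cases i
  · exact h4 e.symm
  · exact h5 2 (by decide) h1
  · exact h5 1 (by decide) (h1.trans (neg_neg _))
  · exact h5 4 (by decide) h1
  · exact h5 3 (by decide) (h1.trans (neg_neg _))
  · exact h5 6 (by decide) h1
  · exact h5 5 (by decide) (h1.trans (neg_neg _))

theorem RR.invol (h : RR k ρ) {g : G} (h2 : g ^ 2 = 1) (h1 : g ≠ 1) :
    Diag (ρ g) ![1, 1, 1, -1, -1, -1, -1] := by
  have ho : orderOf g = 2 := orderOf_eq_prime h2 h1
  obtain ⟨x, y, z, hx, hd⟩ := h.eig g (by rw [ho]; decide)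
  have e2 := (hx.pow_iff 2).1 ((h.pow_iff hd 2).1 h2)
  have e1 : ¬ (val x = 1 ∧ val y = 1) := fun e => h1 (by
    simpa using (h.pow_iff hd 1).2 ((hx.pow_iff 1).2
      ⟨by simpa using val_inj (e.1.trans val_zero.symm),
        by simpa using val_inj (e.2.trans val_zero.symm)⟩))
  have ez : val z = (val x * val y)⁻¹ := by
    rw [← val_add, ← val_neg]; congr 1; linear_combination (norm := module) hx.1
  refine hd.perm ?_
  change ({val 0, val x, val (-x), val y, val (-y), val z, val (-z)} : Multiset L) =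
    {1, 1, 1, -1, -1, -1, -1}
  simp only [val_neg, val_zero, ez, Multiset.insert_eq_cons, ← Multiset.singleton_add]
  rcases val_two (w := x) (by rw [← e2.1]; module) with a | a <;>
    rcases val_two (w := y) (by rw [← e2.2]; module) with b | b
  · exact (e1 ⟨a, b⟩).elim
  all_goals simp only [a, b, inv_one, inv_neg, mul_one, mul_neg, neg_neg] <;> abel

theorem RR.invol_dim (h : RR k ρ) {g : G} (h2 : g ^ 2 = 1) (h1 : g ≠ 1) :
    finrank L (Eg (ρ g) 1) ≤ 3 ∧ finrank L (Eg (ρ g) (-1)) ≤ 4 ∧ (ρ g).trace = -1 := by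
  classical
  have hd := h.invol h2 h1
  have h4 : (-1 : L) ≠ 1 := Ring.neg_one_ne_one_of_char_ne_two (by rw [ringChar.eq L 3]; decide)
  refine ⟨(hd.finrank_le 1).trans ?_, (hd.finrank_le (-1)).trans ?_, ?_⟩
  · rw [Fintype.card_subtype, Finset.card_filter]; simp [Fin.sum_univ_succ, h4, -Finset.sum_boole]
  · rw [Fintype.card_subtype, Finset.card_filter]
    simp [Fin.sum_univ_succ, h4.symm, -Finset.sum_boole]
  · rw [hd.trace]; simp [Fin.sum_univ_succ]

omit [CharP L 3] in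
theorem pow_seven {N : M7 L} (h : IsNilpotent N) : N ^ 7 = 0 := by
  refine ext_of_mulVec_single fun i => ?_
  have := nil_kill (k := 7) (W := ⊤) (h.map (toLinAlgEquiv' (R := L))) le_top (by simp)
    (Submodule.mem_top (x := Pi.single i 1))
  rw [← map_pow] at this
  rw [zero_mulVec]; exact this

theorem nilp_of_pow {U : M7 L} {j : ℕ} (h : U ^ 3 ^ j = 1) : IsNilpotent (U - 1) :=
  ⟨3 ^ j, by rw [sub_pow_char_pow_of_commute 3 j (Commute.one_right U), h, one_pow, sub_self]⟩

theorem RR.pow_nine (h : RR k ρ) {u : G} {j : ℕ} (hu : u ^ 3 ^ j = 1) : u ^ 9 = 1 := by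
  apply h.inj
  have h1 := pow_seven (nilp_of_pow (U := ρ u) (by rw [← map_pow, hu, map_one]))
  have h2 := sub_pow_char_pow_of_commute 3 2 (Commute.one_right (ρ u))
  rw [show 3 ^ 2 = 7 + 2 from rfl, pow_add, h1, zero_mul, one_pow, eq_comm, sub_eq_zero] at h2
  rw [map_pow, map_one]; exact h2

theorem RR.pow_three (h : RR k ρ) {s u : G} {j : ℕ} (hu : u ^ 3 ^ j = 1) (h2 : s ^ 2 = 1)
    (h1 : s ≠ 1) (hc : Commute s u) : u ^ 3 = 1 := by
  apply h.inj
  rw [map_pow, map_one]
  obtain ⟨a, b, -⟩ := h.invol_dim h2 h1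
  exact cube_eq_one (by rw [← map_mul, ← sq, h2, map_one]) (h.orth s)
    (by rw [← map_pow]; exact h.orth _) (hc.map ρ)
    (nilp_of_pow (by rw [← map_pow, hu, map_one])) a b

end Cfsg.Agent.H6.Ree
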