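import Cfsg.Agent.H6.Ree.Cent
import Cfsg.Agent.H6.Aff
import Cfsg.Agent.H6.AltSpec

/-! The spectrum of the direct cube of a small Ree group, abstract part. -/

set_option autoImplicit false

namespace Cfsg.Agent.H6.Ree

open Matrix Subgroup Module

theorem cop {a b : ℕ} (u v : ℤ) (h : u * a + v * b = 1) : a.Coprime b :=
  Nat.isCoprime_iff_coprime.1 ⟨u, v, h⟩

theorem odd_nu (s : ℕ) : Odd (nu s) := ⟨3 * s ^ 2 + 3 * s, by unfold nu; ring⟩
theorem odd_nv (s : ℕ) : Odd (nv s) := by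
  obtain ⟨t, ht⟩ := Nat.even_mul_succ_self s
  exact ⟨3 * t, by unfold nv; nlinarith⟩
theorem odd_na (s : ℕ) : Odd (na s) := ⟨6 * s ^ 2 + 9 * s + 3, by unfold na; ring⟩
theorem odd_nb (s : ℕ) : Odd (nb s) := ⟨6 * s ^ 2 + 3 * s, by unfold nb; ring⟩
theorem cop_uv (s : ℕ) : (nu s).Coprime (2 * nv s) := cop (-1) 1 (by unfold nu nv; push_cast; ring)
theorem cop_vu (s : ℕ) : (nv s).Coprime (2 * nu s) :=
  (Nat.coprime_two_right.2 (odd_nv s)).mul_right (cop_uv s).coprime_mul_left_right.symm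
theorem cop_au (s : ℕ) : (na s).Coprime (2 * nu s) :=
  cop (-(6 * s + 1)) (6 * s + 4) (by unfold na nu; push_cast; ring)
theorem cop_av (s : ℕ) : (na s).Coprime (2 * nv s) :=
  cop (-(2 * s + 1)) (4 * s + 4) (by unfold na nv; push_cast; ring)
theorem cop_bu (s : ℕ) : (nb s).Coprime (2 * nu s) :=
  cop (6 * s + 5) (-(6 * s + 2)) (by unfold nb nu; push_cast; ring)
theorem cop_bv (s : ℕ) : (nb s).Coprime (2 * nv s) :=
  cop (2 * s + 1) (-(4 * s)) (by unfold nb nv; push_cast; ring)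
theorem cop_ab (s : ℕ) : (na s).Coprime (nb s) :=
  cop (-s) (s + 1) (by unfold na nb; push_cast; ring)

variable {L : Type*} [Field L] [CharP L 3]

theorem sq_kill {S T U : M7 L} (hS : S * S = 1) (hT : T * T = 1) (hc : Commute T S)
    (h1 : S.trace = -1) (h2 : T.trace = -1) (h3 : (T * S).trace = -1)
    (hd : finrank L (Eg S 1) ≤ 3) (hUS : Commute S U) (hUT : Commute T U)
    (hn : IsNilpotent (U - 1)) {v : Fin 7 → L} (hv : S *ᵥ v = v) (hv' : T *ᵥ v = -v) :
    (U - 1) ^ 2 *ᵥ v = 0 := by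
  have c3 : (3 : L) = 0 := CharP.cast_eq_zero L 3
  have c3' : (3 : M7 L) = 0 := CharP.cast_eq_zero (M7 L) 3
  set e := (1 - T) * (1 + S) with he
  have hTS : Commute (1 - T) (1 + S) :=
    (Commute.one_left _).sub_left ((Commute.one_right _).add_right hc)
  have e1 : (1 - T) * (1 - T) = -(1 - T) := by
    linear_combination (norm := noncomm_ring) hT + (1 - T) * c3'
  have e2 : (1 + S) * (1 + S) = -(1 + S) := by
    linear_combination (norm := noncomm_ring) hS + (1 + S) * c3'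
  have hee : e * e = e := by
    rw [he, hTS.symm.mul_mul_mul_comm, e1, e2, neg_mul_neg]
  have hid : IsIdempotentElem (toLin' e) := by
    rw [IsIdempotentElem, End.mul_eq_comp, ← toLin'_mul, hee]
  have ht := (LinearMap.IsIdempotentElem.isProj_range _ hid).trace
  have hte : e.trace = (7 : ℕ) + 1 := by
    rw [he, sub_mul, one_mul, mul_add, mul_one, trace_sub, trace_add, trace_add,
      h1, h2, h3, trace_one, Fintype.card_fin]; ring
  rw [trace_toLin'_eq, hte] at ht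
  have hle : LinearMap.range (toLin' e) ≤ Eg S 1 := by
    rintro _ ⟨w, rfl⟩
    rw [mem_Eg, toLin'_apply, mulVec_mulVec, one_smul, he, hTS.eq, ← Matrix.mul_assoc, mul_add,
      hS, mul_one, add_comm S]
  have hf : finrank L (LinearMap.range (toLin' e)) ≤ 2 := by
    by_contra hlt
    have := Submodule.finrank_mono hle
    rw [show finrank L (LinearMap.range (toLin' e)) = 3 by omega] at ht
    simp only [Nat.cast_ofNat] at ht
    exact one_ne_zero (by linear_combination -ht + 2 * c3 : (1 : L) = 0)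
  have hcm : Commute e (U - 1) :=
    (((Commute.one_left _).sub_left hUT).mul_left ((Commute.one_left _).add_left hUS)).sub_right
      (Commute.one_right _)
  have := nil_kill (N := toLin' (U - 1)) (hn.map toLinAlgEquiv') (W := LinearMap.range (toLin' e))
    (by
      rintro _ ⟨_, ⟨w, rfl⟩, rfl⟩
      exact ⟨(U - 1) *ᵥ w, by simp only [toLin'_apply, mulVec_mulVec, hcm.eq]⟩) hf (v := v) ⟨v, by
      rw [toLin'_apply, he, ← mulVec_mulVec, add_mulVec, one_mulVec, hv, sub_mulVec, one_mulVec,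
        mulVec_add, hv']
      ext i; simp; linear_combination v i * c3⟩
  rwa [← toLin'_pow, toLin'_apply] at this

variable {G : Type*} [Group G] [Finite G] {k : ℕ} {ρ : G →* M7 L}

theorem RR.sep (h : RR k ρ) {s : ℕ} (hs : 3 ^ k = 6 * s + 3) {x y : G} {A B : ℕ} (hc : Commute x y)
    (hx : x ≠ 1) (hy : y ≠ 1) (hA : orderOf x ∣ A) (hB : orderOf y ∣ B) (h3 : ¬ 3 ∣ A) (h3' : ¬ 3 ∣ B)
    (hT : ∀ T ∈ [2 * nu s, 2 * nv s, na s, nb s], A.Coprime T ∨ B.Coprime T) : False := by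
  obtain ⟨z, -, hz⟩ := hc.exists_orderOf_eq_lcm
  have h1 : ¬ 3 ∣ orderOf z := fun e => by
    rcases (Nat.prime_three.dvd_mul).1 (e.trans (hz ▸ Nat.lcm_dvd_mul _ _)) with e | e
    · exact h3 (e.trans hA)
    · exact h3' (e.trans hB)
  obtain ⟨T, hT1, hT2⟩ : ∃ T ∈ [2 * nu s, 2 * nv s, na s, nb s], orderOf z ∣ T := by
    simpa only [List.mem_cons, List.not_mem_nil, or_false, exists_eq_or_imp, exists_eq_left,
      orderOf_dvd_iff_pow_eq_one] using h.order_of_not_three hs h1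
  rw [hz] at hT2
  rcases hT T hT1 with e | e
  · exact hx (orderOf_eq_one_iff.1 (Nat.eq_one_of_dvd_coprimes e hA ((Nat.dvd_lcm_left _ _).trans hT2)))
  · exact hy (orderOf_eq_one_iff.1 (Nat.eq_one_of_dvd_coprimes e hB ((Nat.dvd_lcm_right _ _).trans hT2)))

/-- exceptional elements -/
def Exc (s : ℕ) (g : G) : Prop := g ≠ 1 ∧ (orderOf g ∣ na s ∨ orderOf g ∣ nb s)

omit [Finite G] in
theorem Exc.facts {s : ℕ} {g : G} (h : Exc s g) :
    Odd (orderOf g) ∧ ¬ 3 ∣ orderOf g ∧ 4 + 1 ≤ orderOf g := by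
  have h1 : Odd (orderOf g) := h.2.elim (odd_na s).of_dvd_nat (odd_nb s).of_dvd_nat
  have h2 : ¬ 3 ∣ orderOf g := fun e => by
    rcases h.2 with e' | e' <;> have := e.trans e' <;> simp only [na, nb] at this <;> omega
  have h3 : orderOf g ≠ 1 := fun e => h.1 (orderOf_eq_one_iff.1 e)
  obtain ⟨t, ht⟩ := h1
  exact ⟨⟨t, ht⟩, h2, by omega⟩

theorem RR.three_exc (h : RR k ρ) {s : ℕ} (hs : 3 ^ k = 6 * s + 3) (hs1 : 1 ≤ s) {s₁ s₂ : G}
    (o1 : orderOf s₁ = nu s) (c1 : {c | Commute s₁ c ∧ IsConj s₁ c}.ncard ≤ 2)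
    (o2 : orderOf s₂ = nv s) {a b c : G} (ha : Exc s a) (hb : Exc s b) (hc : Exc s c) :
    (∃ z : G, orderOf z = (orderOf a).lcm (orderOf b)) ∨
      (∃ z : G, orderOf z = (orderOf a).lcm (orderOf c)) ∨
      ∃ z : G, orderOf z = (orderOf b).lcm (orderOf c) := by
  by_contra hn
  simp only [not_or, not_exists] at hn
  have hu : 12 + 1 ≤ nu s := by unfold nu; nlinarith
  have hv : 6 + 1 ≤ nv s := by unfold nv; nlinarith
  have u3 : ¬ 3 ∣ nu s := by unfold nu; omega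
  have v3 : ¬ 3 ∣ nv s := by unfold nv; omega
  have a3 : ¬ 3 ∣ na s := by unfold na; omega
  have b3 : ¬ 3 ∣ nb s := by unfold nb; omega
  have n1 : s₁ ≠ 1 := fun e => by rw [e, orderOf_one] at o1; omega
  have n2 : s₂ ≠ 1 := fun e => by rw [e, orderOf_one] at o2; omega
  have C1 := h.cent_eq (o1 ▸ u3) (sq_ne_one_of_odd (o1 ▸ odd_nu s) n1)
  have C2 := h.cent_eq (o2 ▸ v3) (sq_ne_one_of_odd (o2 ▸ odd_nv s) n2)
  have CE : ∀ {g}, Exc s g → _ := fun hg => h.cent_eq hg.facts.2.1 (sq_ne_one_of_odd hg.facts.1 hg.1)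
  have k1 := count_Ys (o1 ▸ odd_nu s) (o1 ▸ hu) C1 c1
  have k2 := count_Ys (o2 ▸ odd_nv s) (o2 ▸ hv) C2 (h.ncard_conj (o2 ▸ v3) (o2 ▸ odd_nv s) n2)
  have kE : ∀ {g}, Exc s g → _ := fun hg =>
    count_Ys hg.facts.1 hg.facts.2.2 (CE hg) (h.ncard_conj hg.facts.2.1 hg.facts.1 hg.1)
  have ne1 : ∀ {x y : G}, orderOf x = orderOf y → y ≠ 1 → x ≠ 1 := fun e hy e' =>
    hy (orderOf_eq_one_iff.1 (by rw [← e, e', orderOf_one]))
  have dEE : ∀ {x y : G}, Exc s x → (∀ z : G, ¬ orderOf z = (orderOf x).lcm (orderOf y)) →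
      Disjoint (Ys x) (Ys y) := fun hx hz => by
    by_contra hd
    obtain ⟨t, h1, h2⟩ := exists_commute_of_Ys (CE hx) hd
    obtain ⟨z, -, h3⟩ := h1.exists_orderOf_eq_lcm
    exact hz z (h2 ▸ h3)
  have d12 : Disjoint (Ys s₁) (Ys s₂) := by
    by_contra hd
    obtain ⟨t, h1, h2⟩ := exists_commute_of_Ys C1 hd
    refine h.sep hs h1 n1 (ne1 h2 n2) o1.dvd (h2.trans o2).dvd u3 v3 ?_
    simp only [List.mem_cons, List.not_mem_nil, or_false, forall_eq_or_imp, forall_eq]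
    exact ⟨Or.inr (cop_vu s), Or.inl (cop_uv s), Or.inl (cop_au s).coprime_mul_left_right.symm,
      Or.inl (cop_bu s).coprime_mul_left_right.symm⟩
  have d1E : ∀ {g}, Exc s g → Disjoint (Ys s₁) (Ys g) := fun hg => by
    by_contra hd
    obtain ⟨t, h1, h2⟩ := exists_commute_of_Ys C1 hd
    rcases hg.2 with e | e
    · refine h.sep hs h1 n1 (ne1 h2 hg.1) o1.dvd (h2 ▸ e) u3 a3 ?_
      simp only [List.mem_cons, List.not_mem_nil, or_false, forall_eq_or_imp, forall_eq]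
      exact ⟨Or.inr (cop_au s), Or.inl (cop_uv s), Or.inl (cop_au s).coprime_mul_left_right.symm,
        Or.inr (cop_ab s)⟩
    · refine h.sep hs h1 n1 (ne1 h2 hg.1) o1.dvd (h2 ▸ e) u3 b3 ?_
      simp only [List.mem_cons, List.not_mem_nil, or_false, forall_eq_or_imp, forall_eq]
      exact ⟨Or.inr (cop_bu s), Or.inl (cop_uv s), Or.inr (cop_ab s).symm,
        Or.inl (cop_bu s).coprime_mul_left_right.symm⟩
  have d2E : ∀ {g}, Exc s g → Disjoint (Ys s₂) (Ys g) := fun hg => by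
    by_contra hd
    obtain ⟨t, h1, h2⟩ := exists_commute_of_Ys C2 hd
    rcases hg.2 with e | e
    · refine h.sep hs h1 n2 (ne1 h2 hg.1) o2.dvd (h2 ▸ e) v3 a3 ?_
      simp only [List.mem_cons, List.not_mem_nil, or_false, forall_eq_or_imp, forall_eq]
      exact ⟨Or.inl (cop_vu s), Or.inr (cop_av s), Or.inl (cop_av s).coprime_mul_left_right.symm,
        Or.inr (cop_ab s)⟩
    · refine h.sep hs h1 n2 (ne1 h2 hg.1) o2.dvd (h2 ▸ e) v3 b3 ?_
      simp only [List.mem_cons, List.not_mem_nil, or_false, forall_eq_or_imp, forall_eq]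
      exact ⟨Or.inl (cop_vu s), Or.inr (cop_bv s), Or.inr (cop_ab s).symm,
        Or.inl (cop_bv s).coprime_mul_left_right.symm⟩
  have tot : (Ys s₁ ∪ Ys s₂ ∪ Ys a ∪ Ys b ∪ Ys c).ncard ≤ Nat.card G := Set.ncard_le_card _
  rw [Set.ncard_union_eq (by simp [d1E hc, d2E hc, dEE ha hn.2.1, dEE hb hn.2.2]),
    Set.ncard_union_eq (by simp [d1E hb, d2E hb, dEE ha hn.1]),
    Set.ncard_union_eq (by simp [d1E ha, d2E ha]), Set.ncard_union_eq d12] at tot
  have := kE ha; have := kE hb; have := kE hc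
  have : 0 < Nat.card G := Nat.card_pos
  omega

/-- the action of the centralizer of `t` on an invariant subgroup -/
@[reducible] def wAct (ρ : G →* M7 L) (t : G) (W : AddSubgroup (Fin 7 → L))
    (hW : ∀ c, Commute t c → ∀ w ∈ W, ρ c *ᵥ w ∈ W) : DistribMulAction (centralizer {t}) W where
  smul c w := ⟨ρ c *ᵥ w, hW c (mem_centralizer_singleton_iff.1 c.2).symm w w.2⟩
  one_smul w := Subtype.ext (by change ρ 1 *ᵥ w.1 = w; simp)
  mul_smul a b w := Subtype.ext (by change ρ (a * b) *ᵥ w.1 = ρ a *ᵥ ρ b *ᵥ w.1; simp)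
  smul_zero a := Subtype.ext (mulVec_zero (ρ a))
  smul_add a b c := Subtype.ext (mulVec_add (ρ a) b.1 c.1)

theorem geom3 (U : M7 L) : 1 + U + U ^ 2 = (U - 1) ^ 2 := by
  have c3' : (3 : M7 L) = 0 := CharP.cast_eq_zero (M7 L) 3
  linear_combination (norm := noncomm_ring) U * c3'

theorem RR.main (h : RR k ρ) {s : ℕ} (hs : 3 ^ k = 6 * s + 3) (hs1 : 1 ≤ s) {t s₁ s₂ y n : G}
    (ht : t ^ 2 = 1) (ht1 : t ≠ 1) (o1 : orderOf s₁ = nu s) (t1 : Commute t s₁)
    (c1 : {c | Commute s₁ c ∧ IsConj s₁ c}.ncard ≤ 2) (o2 : 2 * nv s ∣ orderOf s₂)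
    (t2 : Commute t s₂) (hn : n ^ 9 = 1) (hn' : n ^ 3 ≠ 1) (W : AddSubgroup (Fin 7 → L)) [Finite W]
    (hW : ∀ c, Commute t c → ∀ w ∈ W, ρ c *ᵥ w ∈ W) (hW' : ∀ w ∈ W, ρ t *ᵥ w = -w)
    (ty : Commute t y) (hy : y ^ 3 = 1) {w : Fin 7 → L} (hw : w ∈ W) (hyw : (ρ y - 1) ^ 2 *ᵥ w ≠ 0)
    (N : ℕ) : ∃ (H : Type) (_ : Group H) (_ : Fintype H), N < Fintype.card H ∧
      Set.range (orderOf : H → ℕ) = Set.range (orderOf : G × G × G → ℕ) := by
  letI := wAct ρ t W hW
  have sm : ∀ (c : centralizer {t}) (w : W), (c • w).1 = ρ c *ᵥ w.1 := fun _ _ => rfl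
  have c3 : (3 : L) = 0 := CharP.cast_eq_zero L 3
  have hV : ∀ v : W, 3 • v = 0 := fun v => Subtype.ext (by ext i; simp [c3])
  have y1 : y ≠ 1 := fun e => hyw (by simp [e])
  have oy : orderOf y = 3 := orderOf_eq_prime hy y1
  have ot : orderOf t = 2 := orderOf_eq_prime ht ht1
  have mc : ∀ {c}, Commute t c → c ∈ centralizer {t} := fun hc =>
    mem_centralizer_singleton_iff.2 hc.symm
  have sub : ∀ c, Commute t c → ∀ d, d ∣ orderOf c →
      d ∈ Set.range (orderOf : Aff W (centralizer {t}) → ℕ) := fun c hc d hd =>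
    mem_spec_of_dvd' (spec_subset_of_injective Aff.inr Aff.inr_injective
      ⟨⟨c, mc hc⟩, (orderOf_coe _).symm⟩) hd
  have o6 : orderOf (t * y) = 6 := by
    rw [ty.orderOf_mul_eq_mul_orderOf_of_coprime (by rw [ot, oy]; decide), ot, oy]
  have o9 : orderOf n = 9 := orderOf_eq_prime_pow (p := 3) (n := 1) hn' hn
  have x9 : 9 ∈ Set.range (orderOf : Aff W (centralizer {t}) → ℕ) := by
    refine ⟨⟨⟨w, hw⟩, ⟨y, mc ty⟩⟩, ?_⟩
    have e : orderOf (⟨y, mc ty⟩ : centralizer {t}) = 3 := (orderOf_coe _).symm.trans oy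
    rw [Aff.orderOf_of_nrm_ne_zero Nat.prime_three hV _ fun e' => hyw ?_, e]
    have := congrArg Subtype.val e'
    simp only [Aff.nrm, e, Finset.sum_range_succ, Finset.range_zero, Finset.sum_empty, zero_add,
      AddSubgroup.coe_add, sm, SubgroupClass.coe_pow, map_pow, pow_zero, pow_one,
      OneMemClass.coe_one, map_one] at this
    rw [← geom3, add_mulVec, add_mulVec]; exact this
  have XG : Set.range (orderOf : Aff W (centralizer {t}) → ℕ) ⊆ Set.range (orderOf : G → ℕ) := by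
    rintro _ ⟨⟨v, c, hc⟩, rfl⟩
    have tc : Commute t c := (mem_centralizer_singleton_iff.1 hc).symm
    have oc : orderOf (⟨c, hc⟩ : centralizer {t}) = orderOf c := (orderOf_coe _).symm
    by_cases h0 : Aff.nrm (⟨v, c, hc⟩ : Aff W (centralizer {t})) = 0
    · rw [Aff.orderOf_eq, h0, addOrderOf_zero, mul_one]; exact ⟨c, oc.symm⟩
    rw [Aff.orderOf_of_nrm_ne_zero Nat.prime_three hV _ h0, oc]
    by_cases h3 : 3 ∣ orderOf c
    · obtain ⟨j, ⟨h4, -⟩ | ⟨h4, h5⟩⟩ := h.order_of_three h3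
      · exact mem_spec_of_dvd (g := n) (o9 ▸ Nat.mul_dvd_mul_right
          (orderOf_dvd_of_pow_eq_one (h.pow_three h4 ht ht1 tc)) 3)
      · refine (h0 (Subtype.ext ?_)).elim
        have e : orderOf c = 6 := by
          have h6 := orderOf_dvd_of_pow_eq_one h4
          have h7 : orderOf c ≠ 3 := fun e => h5 (e ▸ pow_orderOf_eq_one c)
          have := Nat.le_of_dvd (by norm_num) h6
          interval_cases orderOf c <;> omega
        simp only [Aff.nrm, oc, e, Finset.sum_range_succ, Finset.range_zero, Finset.sum_empty,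
          zero_add, AddSubgroup.coe_add, sm, SubgroupClass.coe_pow, map_pow, pow_zero, pow_one,
          OneMemClass.coe_one, map_one]
        have hS : (c ^ 3) ^ 2 = 1 := by rw [← pow_mul, h4]
        have hS' : ρ c ^ 3 * ρ c ^ 3 = 1 := by rw [← map_pow, ← map_mul, ← sq, hS, map_one]
        have e1 : ρ c ^ 3 *ᵥ ((1 + ρ c ^ 3) *ᵥ v.1) = (1 + ρ c ^ 3) *ᵥ v.1 := by
          rw [mulVec_mulVec, mul_add, hS', mul_one, add_comm]
        have e2 : ρ t *ᵥ ((1 + ρ c ^ 3) *ᵥ v.1) = -((1 + ρ c ^ 3) *ᵥ v.1) := by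
          refine hW' _ ?_
          rw [add_mulVec, one_mulVec, ← map_pow]
          exact W.add_mem v.2 (hW _ (tc.pow_right 3) _ v.2)
        have e3 : (ρ c ^ 4 - 1) ^ 2 *ᵥ ((1 + ρ c ^ 3) *ᵥ v.1) = 0 := by
          by_cases hst : t * c ^ 3 = 1
          · have : (1 + ρ c ^ 3) *ᵥ v.1 = 0 := by
              have e4 : c ^ 3 = t := by
                rw [← one_mul (c ^ 3), ← ht, sq, mul_assoc, hst, mul_one]
              rw [← map_pow, e4, add_mulVec, hW' _ v.2]; simp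
            rw [this, mulVec_zero]
          · obtain ⟨a1, -, a2⟩ := h.invol_dim hS h5
            rw [map_pow] at a1 a2
            refine sq_kill hS' (by rw [← map_mul, ← sq, ht, map_one]) ((tc.map ρ).pow_right 3) a2
              (h.invol_dim ht ht1).2.2 ?_ a1 ((Commute.refl _).pow_pow _ _)
              ((tc.map ρ).pow_right 4) (nilp_of_pow (j := 1) ?_) e1 e2
            · rw [← map_pow, ← map_mul]
              exact (h.invol_dim (by rw [(tc.pow_right 3).mul_pow, ht, hS, one_mul]) hst).2.2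
            · rw [← map_pow, ← map_pow, ← pow_mul, show 4 * 3 ^ 1 = 6 * 2 from rfl, pow_mul, h4]
              simp
        have h6 : ρ c ^ 6 = 1 := by rw [← map_pow, h4, map_one]
        rw [← geom3, mulVec_mulVec] at e3
        simp only [← add_mulVec, ZeroMemClass.coe_zero]
        rw [← e3]
        congr 1
        linear_combination (norm := noncomm_ring) -(ρ c + ρ c ^ 2 + ρ c ^ 5) * h6
    · have e1 : ρ c *ᵥ _ = _ := congrArg Subtype.val
        (Aff.smul_nrm (⟨v, c, hc⟩ : Aff W (centralizer {t})))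
      have h2 : c ^ 2 = 1 := by
        by_contra h2
        obtain ⟨d, hd, -, -, h5⟩ := h.regular (g := t * c) (fun e => by
          have := e.trans tc.orderOf_mul_dvd_mul_orderOf
          rw [ot] at this; omega) (by rwa [tc.mul_pow, ht, one_mul])
        obtain ⟨i, hi⟩ := hd.exists_eq (μ := -1) (by
          rw [map_mul, ← mulVec_mulVec, e1, hW' _ (Subtype.prop _), neg_one_smul])
          fun e => h0 (Subtype.ext e)
        exact h5 i hi
      exact mem_spec_of_dvd (g := t * y)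
        (o6 ▸ Nat.mul_dvd_mul_right (orderOf_dvd_of_pow_eq_one h2) 3)
  have cls : ∀ g : G, orderOf g ∈ Set.range (orderOf : Aff W (centralizer {t}) → ℕ) ∨ Exc s g := by
    intro g
    by_cases h3 : 3 ∣ orderOf g
    · obtain ⟨j, ⟨-, h4⟩ | ⟨h4, -⟩⟩ := h.order_of_three h3
      · exact Or.inl (mem_spec_of_dvd' x9 (orderOf_dvd_of_pow_eq_one h4))
      · exact Or.inl (sub _ ((Commute.refl t).mul_right ty) _ (o6 ▸ orderOf_dvd_of_pow_eq_one h4))
    by_cases h1 : g = 1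
    · exact Or.inl ⟨1, by simp [h1]⟩
    rcases h.order_of_not_three hs h3 with e | e | e | e
    · refine Or.inl (sub _ ((Commute.refl t).mul_right t1) _ ?_)
      rw [t1.orderOf_mul_eq_mul_orderOf_of_coprime
        (by rw [ot, o1]; exact Nat.coprime_two_left.2 (odd_nu s)), ot, o1]
      exact orderOf_dvd_of_pow_eq_one e
    · exact Or.inl (sub _ t2 _ ((orderOf_dvd_of_pow_eq_one e).trans o2))
    · exact Or.inr ⟨h1, Or.inl (orderOf_dvd_of_pow_eq_one e)⟩
    · exact Or.inr ⟨h1, Or.inr (orderOf_dvd_of_pow_eq_one e)⟩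
  obtain ⟨s₃, o3⟩ := mem_spec_of_dvd (g := s₂) ((dvd_mul_left _ _).trans o2)
  have key : Set.range (orderOf : G × G × Aff W (centralizer {t}) → ℕ) =
      Set.range (orderOf : G × G × G → ℕ) := by
    apply Set.Subset.antisymm
    · rintro _ ⟨⟨a, b, x⟩, rfl⟩
      obtain ⟨c, hc⟩ := XG ⟨x, rfl⟩
      exact ⟨(a, b, c), by simp only [Prod.orderOf, hc]⟩
    · rintro _ ⟨⟨a, b, c⟩, rfl⟩
      rcases cls c with ⟨x, hx⟩ | hc
      · exact ⟨(a, b, x), by simp only [Prod.orderOf, hx]⟩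
      rcases cls b with ⟨x, hx⟩ | hb
      · exact ⟨(a, c, x), by simp only [Prod.orderOf, hx, Nat.lcm_comm]⟩
      rcases cls a with ⟨x, hx⟩ | ha
      · exact ⟨(b, c, x), by simp only [Prod.orderOf, hx]; ac_rfl⟩
      rcases h.three_exc hs hs1 o1 c1 o3 ha hb hc with ⟨z, hz⟩ | ⟨z, hz⟩ | ⟨z, hz⟩
      · exact ⟨(z, c, 1), by simp only [Prod.orderOf, hz, orderOf_one, Nat.lcm_one_right]; ac_rfl⟩
      · exact ⟨(z, b, 1), by simp only [Prod.orderOf, hz, orderOf_one, Nat.lcm_one_right]; ac_rfl⟩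
      · exact ⟨(a, z, 1), by simp only [Prod.orderOf, hz, orderOf_one, Nat.lcm_one_right]⟩
  rw [← key]
  refine exists_large_isospectral_of_ker
    ((MonoidHom.id G).prodMap ((MonoidHom.id G).prodMap Aff.proj)) Nat.prime_three
    (fun x hx => ?_) (x := (1, 1, ⟨⟨w, hw⟩, 1⟩)) rfl (fun e => hyw ?_) N
  · obtain ⟨a, b, x⟩ := x
    simp only [MonoidHom.coe_prodMap, Prod.map_apply, MonoidHom.id_apply, Prod.mk_eq_one] at hx
    simp [hx.1, hx.2.1, Aff.pow_eq_one_of_proj hV x hx.2.2]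
  · have : w = 0 := congrArg (fun x : G × G × Aff W (centralizer {t}) => x.2.2.v.1) e
    rw [this, mulVec_zero]

end Cfsg.Agent.H6.Ree
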