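import Cfsg.Agent.H6.Ree.Poly
import Cfsg.Prelude.Def_LieTwisted

/-! The root elements of `G₂` in characteristic 3, in a basis adapted to the ideal spanned by the
short roots. -/

set_option autoImplicit false

namespace Cfsg.Agent.H6.Ree

open Matrix Cfsg.Lie

variable {K : Type*}

/-- the matrix `xMat` with polynomial entries -/
def xP (D : ChevalleyDatum) (r : Fin D.nroots) (row col : D.Idx) : P :=
    match col with
    | Sum.inl i =>
      (match row with
       | Sum.inl i' => if i' = i then pc 1 else pc 0
       | Sum.inr u => if u = r then ps (- ((D.cartanSR.getD i.val #[]).getD r.val 0 : ℤ)) (pv 0) else pc 0)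
    | Sum.inr s =>
      if s = r then (match row with | Sum.inr u => if u = r then pc 1 else pc 0 | Sum.inl _ => pc 0)
      else if s.val = D.negIdx.getD r.val 0 then
        (match row with
         | Sum.inl i => ps ((D.coroot.getD r.val #[]).getD i.val 0 : ℤ) (pv 0)
         | Sum.inr u => if u = s then pc 1 else if u = r then ps (-1) (pm (pv 0) (pv 0)) else pc 0)
      else
        (match row with
         | Sum.inl _ => pc 0
         | Sum.inr u => pa (if u = s then pc 1 else pc 0)
             (((D.chainCoeff r.val s.val u.val).map fun km =>
               ps km.2 (Lean.Grind.CommRing.Poly.pow (pv 0) km.1)).foldr pa (pc 0)))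

theorem ev_foldr [CommRing K] (c : Lean.RArray K) (l : List P) :
    ev c (l.foldr pa (pc 0)) = (l.map (ev c)).sum := by
  induction l with
  | nil => simp [ev_pc]
  | cons a l ih => simp [ev_pa, ih]

theorem ev_pow [CommRing K] (c : Lean.RArray K) (p : P) (k : ℕ) :
    ev c (Lean.Grind.CommRing.Poly.pow p k) = ev c p ^ k :=
  Lean.Grind.CommRing.Poly.denote_pow c p k

theorem ev_xP [Field K] (D : ChevalleyDatum) (r : Fin D.nroots) (t : K) (row col : D.Idx) :
    ev (.leaf t) (xP D r row col) = D.xMat K r t row col := by
  have hv : ev (.leaf t) (pv 0) = t := ev_pv _ _
  rcases row with i | i <;> rcases col with j | j <;>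
    simp only [xP, ChevalleyDatum.xMat, Matrix.of_apply] <;>
    (try split_ifs) <;>
    simp [ev_pc, ev_ps, ev_pa, ev_pm, hv, ev_foldr, List.map_map, Function.comp_def, ev_pow, sq]

/-- the adapted basis -/
def eps0 : ℕ → Fin 2 ⊕ Fin 12
  | 0 => .inr 9 | 1 => .inr 8 | 2 => .inr 7 | 3 => .inl 0 | 4 => .inr 4 | 5 => .inr 3 | 6 => .inr 2
  | 7 => .inr 11 | 8 => .inr 10 | 9 => .inr 6 | 10 => .inl 1 | 11 => .inr 5 | 12 => .inr 1
  | _ => .inr 0

theorem eps0_bij : Function.Bijective (fun i : Fin 14 => eps0 i) := by decide

/-- the adapted basis -/
noncomputable def eps : Fin 14 ≃ chevG2.Idx := Equiv.ofBijective (fun i : Fin 14 => eps0 i) eps0_bij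

/-- coefficient tables of the root elements -/
def xt (k : ℕ) : ℕ := List.getD [40483768844226935623313657657427144518412947788073022645888973235149283693221903570697977116, 2998797483173576400828479421449752203867222732006689314237045637115982668645838574679612966, 0, 121451314996829409981722822746614515647733794558130857865301963678822130274237872383982800138, 1880922173972009687389869820262112635812958059318399919111149771480423144272420691842, 0, 323257932457577219317356275903154454759011, 23961453570681422782213386511006702859505, 4498196851734422591912614928797901726505046035662720410822208159390564496443139286159650063, 969921673797636269896718547849690653828814, 471310032691755404028094913549668253377753047, 13494588674281224888428474431799630301341520235440957316367334843533206885849965563652389553, 5819085805275219224570298146612322083738253, 2120895147045314128911866982005334476235398703, 50784898697244261559535080191634212594081906317912767542108323246222193983523890364303, 728707788411182604688475718354758329487041842122163467122642188780258880524200313783795633354, 1179762302853317481708455451161472697698620705665288601563892493227798347180854,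 0, 457064088275199464001270827105626687824794724564783727624110588933710396425853111708130, 464132406087257065130090681062365209793088477541530761100710966726, 0, 12725370885921485443229812644084761649350330106, 2660558929458226619689501489755277080183, 31853582177039572006133688212259506131493998592451321057344291744033168927202261, 38176112646815654532369423649096506842520650199, 834385168331080533771859653572511, 2088595827392677081436889201138701025397732502383909616117910441633, 3990838672315729532760649645664486390265, 72945995296207402593, 436673563744261227539476871314820527715089641065191952129541, 47780376595455723325351375189300177478639472438121159355946558059549581127805711, 291115668586137856086935132380556016436499051661131879236962, 0, 19979378888095562707382398110640048144014016072469136091349503818782253705, 182595163330227222518231959509181023190720482399822294, 0] k 0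

/-- tables of the adjoint action on the ideal -/
def dt (k : ℕ) : ℕ := List.getD [15252357585789, 16679723565553965, 72945993601759322415, 159545045672224351613929, 53177629953450085503309, 8865639823150618765263, 2954763127727939778975, 1594809, 3486784563, 11118121133130729, 24317183938388809446, 8105110306052301441, 984770947937196142803, 328357030484735077041] k 0

/-- root elements with a polynomial parameter -/
def XT (r : ℕ) (p : P) : PM := memo 14 14 fun i j =>
  pa (pa (pa (oneP i j) (ps (dig (xt (3 * r)) (14 * i + j)) p))
    (ps (dig (xt (3 * r + 1)) (14 * i + j)) (pm p p)))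
    (ps (dig (xt (3 * r + 2)) (14 * i + j)) (pm p (pm p p)))

/-- root elements -/
def Xm [CommRing K] (r : ℕ) (t : K) : Matrix (Fin 14) (Fin 14) K :=
  1 + t • cK K 14 14 (xt (3 * r)) + t ^ 2 • cK K 14 14 (xt (3 * r + 1)) +
    t ^ 3 • cK K 14 14 (xt (3 * r + 2))

theorem evM_XT [CommRing K] (c : Lean.RArray K) (r : ℕ) (p : P) :
    evM c 14 14 (XT r p) = Xm r (ev c p) := by
  rw [XT, evM_memo, Xm, ← evM_oneP c 14]
  ext i j
  simp only [evM, cK, of_apply, ev_pa, ev_ps, ev_pm, Matrix.add_apply, Matrix.smul_apply,
    smul_eq_mul]
  ring

theorem link_chk : (allB 12 fun r => if h : r < 12 then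
    eqM 14 14 (fun i j => xP chevG2 ⟨r, h⟩ (eps0 i) (eps0 j)) (XT r (pv 0)) else true) = true := by
  decide +kernel

theorem x_eq [Field K] [CharP K 3] {r : ℕ} (hr : r < 12) (t : K) :
    (chevG2.x K r t).submatrix eps eps = Xm r t := by
  have h := allB_sound link_chk hr
  rw [dif_pos hr] at h
  have h2 := evM_eqM (.leaf t) h
  rw [evM_XT, ev_pv] at h2
  refine Eq.trans ?_ h2
  ext i j
  rw [ChevalleyDatum.x, dif_pos (show r < chevG2.nroots from hr)]
  exact (ev_xP chevG2 ⟨r, hr⟩ t _ _).symm

end Cfsg.Agent.H6.Ree
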